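import Cfsg.Agent.S0205
import Cfsg.Agent.S0215
import Cfsg.Agent.Lib.Dedekind.Hamiltonian

/-!
Groups in which the nontrivial subgroups of a cyclic subgroup of even order have the same
normalizer: first consequences.
-/

set_option autoImplicit false

namespace CfsgLib.GWApps.SameNorm

universe u

/-- All nontrivial subgroups of a cyclic subgroup of even order have its normalizer. -/
def EqNorm (G : Type u) [Group G] : Prop :=
  ∀ X : Subgroup G, IsCyclic ↥X → Even (Nat.card ↥X) → ∀ Y : Subgroup G, Y ≤ X → Y ≠ ⊥ →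
    Subgroup.normalizer (X : Set G) = Subgroup.normalizer (Y : Set G)

/-- There is no nontrivial solvable normal subgroup. -/
def Semisimple (G : Type u) [Group G] : Prop :=
  ∀ N : Subgroup G, N.Normal → Group.IsSolvable ↥N → N = ⊥

variable {G : Type u} [Group G]

theorem conj_orderOf (c g : G) : orderOf (c * g * c⁻¹) = orderOf g :=
  orderOf_injective (MulAut.conj c).toMonoidHom (MulAut.conj c).injective g

/-- A cyclic group has at most one involution. -/
theorem involution_unique {g s t : G} (hs : orderOf s = 2) (ht : orderOf t = 2)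
    (hsg : s ∈ Subgroup.zpowers g) (htg : t ∈ Subgroup.zpowers g) : s = t := by
  obtain ⟨a, rfl⟩ := Subgroup.mem_zpowers_iff.1 hsg
  obtain ⟨b, rfl⟩ := Subgroup.mem_zpowers_iff.1 htg
  have key : ∀ i : ℤ, orderOf (g ^ i) = 2 →
      (orderOf g : ℤ) ∣ 2 * i ∧ ¬ (orderOf g : ℤ) ∣ i := by
    intro i hi
    refine ⟨orderOf_dvd_iff_zpow_eq_one.2 ?_, fun h => ?_⟩
    · rw [mul_comm, zpow_mul]
      have := pow_orderOf_eq_one (g ^ i)
      rw [hi] at this
      exact_mod_cast this
    · rw [orderOf_dvd_iff_zpow_eq_one.1 h, orderOf_one] at hi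
      omega
  obtain ⟨⟨k, hk⟩, hna⟩ := key a hs
  obtain ⟨⟨l, hl⟩, hnb⟩ := key b ht
  have hko : Odd k := by
    rcases Int.even_or_odd k with ⟨m, rfl⟩ | h
    · exact absurd ⟨m, by linarith⟩ hna
    · exact h
  have hlo : Odd l := by
    rcases Int.even_or_odd l with ⟨m, rfl⟩ | h
    · exact absurd ⟨m, by linarith⟩ hnb
    · exact h
  obtain ⟨k', rfl⟩ := hko
  obtain ⟨l', rfl⟩ := hlo
  have hab : (orderOf g : ℤ) ∣ a - b := ⟨k' - l', by linarith⟩
  have h1 := orderOf_dvd_iff_zpow_eq_one.1 hab
  rwa [zpow_sub, mul_inv_eq_one] at h1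

theorem involution_sq {t : G} (h : orderOf t = 2) : t * t = 1 := by
  rw [← pow_two, ← h, pow_orderOf_eq_one]

theorem involution_ne_one {t : G} (h : orderOf t = 2) : t ≠ 1 := by
  rintro rfl
  rw [orderOf_one] at h
  omega

theorem orderOf_two_of_sq {t : G} (h : t * t = 1) (h1 : t ≠ 1) : orderOf t = 2 :=
  orderOf_eq_prime (by rw [pow_two, h]) h1

/-- An element of even order has an involution among its powers. -/
theorem exists_involution [Finite G] {g : G} (h : Even (orderOf g)) :
    ∃ e ∈ Subgroup.zpowers g, orderOf e = 2 := by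
  refine ⟨g ^ (orderOf g / 2), pow_mem (Subgroup.mem_zpowers g) _, ?_⟩
  have h0 := orderOf_pos g
  obtain ⟨m, hm⟩ := h
  rw [show orderOf g / 2 = m by omega, orderOf_pow' g (show m ≠ 0 by omega), hm,
    show m + m = 2 * m by ring, Nat.gcd_mul_left_left, Nat.mul_div_cancel _ (by omega)]

theorem commute_of_mem_zpowers {g x : G} (h : g ∈ Subgroup.zpowers x) : Commute g x :=
  CfsgLib.Dedekind.commute_of_mem_zpowers h

theorem mem_normalizer_zpowers {c t : G} :
    c ∈ Subgroup.normalizer ((Subgroup.zpowers t : Subgroup G) : Set G) →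
      c * t * c⁻¹ ∈ Subgroup.zpowers t := fun h =>
  ((Subgroup.mem_normalizer_iff.1 h) t).1 (Subgroup.mem_zpowers t)

theorem normalizer_involution [Finite G] {t : G} (ht : orderOf t = 2) :
    Subgroup.normalizer ((Subgroup.zpowers t : Subgroup G) : Set G) =
      Subgroup.centralizer ({t} : Set G) := by
  refine le_antisymm (fun c hc => ?_) (fun c hc => ?_)
  · rw [Subgroup.mem_centralizer_singleton_iff]
    have h1 := involution_unique (conj_orderOf c t ▸ ht) ht (mem_normalizer_zpowers hc)
      (Subgroup.mem_zpowers t)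
    exact mul_inv_eq_iff_eq_mul.1 h1
  · refine Subgroup.mem_normalizer_fintype fun x hx => ?_
    obtain ⟨i, rfl⟩ := Subgroup.mem_zpowers_iff.1 hx
    rw [← conj_zpow, mul_inv_eq_iff_eq_mul.2 (Subgroup.mem_centralizer_singleton_iff.1 hc)]
    exact zpow_mem (Subgroup.mem_zpowers t) i

section EqNorm

variable [Finite G] (hG : EqNorm G)

include hG in
/-- The basic consequence of the hypothesis. -/
theorem normalizer_eq {g t h : G} (ht : orderOf t = 2) (htg : t ∈ Subgroup.zpowers g)
    (hh : h ∈ Subgroup.zpowers g) (h1 : h ≠ 1) :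
    Subgroup.normalizer ((Subgroup.zpowers h : Subgroup G) : Set G) =
      Subgroup.centralizer ({t} : Set G) := by
  have hev : Even (Nat.card (Subgroup.zpowers g)) := even_iff_two_dvd.2
    (ht ▸ Subgroup.orderOf_dvd_natCard _ htg)
  have h2 := hG _ (Subgroup.isCyclic_zpowers g) hev _ (Subgroup.zpowers_le.2 hh)
    (Subgroup.zpowers_ne_bot.2 h1)
  have h3 := hG _ (Subgroup.isCyclic_zpowers g) hev _ (Subgroup.zpowers_le.2 htg)
    (Subgroup.zpowers_ne_bot.2 (involution_ne_one ht))
  rw [← h2, h3, normalizer_involution ht]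

include hG in
theorem normalizer_odd {t x : G} (ht : orderOf t = 2) (hx : Commute x t) (hxo : Odd (orderOf x))
    (h1 : x ≠ 1) :
    Subgroup.normalizer ((Subgroup.zpowers x : Subgroup G) : Set G) =
      Subgroup.centralizer ({t} : Set G) := by
  obtain ⟨k, hk⟩ := hxo
  have ht2 : ∀ m, t ^ (2 * m) = 1 := fun m => by
    rw [pow_mul, pow_two, involution_sq ht, one_pow]
  have hxn : x ^ orderOf x = 1 := pow_orderOf_eq_one x
  have e1 : (x * t) ^ orderOf x = t := by
    rw [hx.mul_pow, hxn, one_mul, hk, pow_succ, ht2, one_mul]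
  have e2 : (x * t) ^ (orderOf x + 1) = x := by
    rw [hx.mul_pow, pow_succ, hxn, one_mul, hk, show 2 * k + 1 + 1 = 2 * (k + 1) by ring, ht2,
      mul_one]
  refine normalizer_eq hG (g := x * t) ht ?_ ?_ h1
  · have := pow_mem (Subgroup.mem_zpowers (x * t)) (orderOf x)
    rwa [e1] at this
  · have := pow_mem (Subgroup.mem_zpowers (x * t)) (orderOf x + 1)
    rwa [e2] at this

include hG in
/-- An element commuting with the involution of a cyclic group normalizes it. -/
theorem conj_mem {g t c : G} (ht : orderOf t = 2) (htg : t ∈ Subgroup.zpowers g)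
    (hc : Commute c t) : c * g * c⁻¹ ∈ Subgroup.zpowers g := by
  rcases eq_or_ne g 1 with rfl | h1
  · simp
  refine mem_normalizer_zpowers ?_
  rw [normalizer_eq hG ht htg (Subgroup.mem_zpowers g) h1]
  exact Subgroup.mem_centralizer_singleton_iff.2 hc

end EqNorm

/-- Nontrivial fusion of an involution, from the Z*-theorem. -/
theorem exists_fused [Finite G] (hss : Semisimple G) (S : Sylow 2 G) {e : G} (he : orderOf e = 2)
    (heS : e ∈ S) : ∃ g : G, g * e * g⁻¹ ∈ S ∧ g * e * g⁻¹ ≠ e := by
  by_contra hh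
  push Not at hh
  obtain ⟨N, hN, hodd, hcom⟩ := Cfsg.Agent.S0215.result S e he heS hh
  have hNb : N = ⊥ := hss N hN (Cfsg.Agent.S0205.result hodd)
  have hc : e ∈ Subgroup.center G := by
    rw [Subgroup.mem_center_iff]
    intro g
    have h1 := hcom g
    rw [hNb, Subgroup.mem_bot, mul_inv_eq_one, mul_inv_eq_iff_eq_mul] at h1
    exact h1.symm
  have hZ : Group.IsSolvable (Subgroup.center G) :=
    Group.isSolvable_of_comm fun a b => Subtype.ext (Subgroup.mem_center_iff.1 b.2 a)
  rw [hss _ inferInstance hZ, Subgroup.mem_bot] at hc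
  exact involution_ne_one he hc

/-- A 2-element normalizing a Sylow 2-subgroup belongs to it. -/
theorem mem_of_normalizing [Finite G] (S : Sylow 2 G) {x : G}
    (hx : ∃ k : ℕ, orderOf x = 2 ^ k)
    (hn : x ∈ Subgroup.normalizer ((S : Subgroup G) : Set G)) : x ∈ S := by
  haveI : Fact (Nat.Prime 2) := ⟨Nat.prime_two⟩
  obtain ⟨k, hk⟩ := hx
  have hP : IsPGroup 2 (Subgroup.zpowers x) :=
    IsPGroup.of_card (n := k) (by rw [Nat.card_zpowers, hk])
  exact ((IsPGroup.inf_normalizer_sylow hP S).le ⟨Subgroup.mem_zpowers x, hn⟩).2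

/-- An involution fixed by the normalizer of a Sylow 2-subgroup in whose centre it lies is fused
to an involution outside this centre. -/
theorem exists_fused_outside [Finite G] (hss : Semisimple G) (S : Sylow 2 G) {e : G}
    (he : orderOf e = 2) (heS : e ∈ S) (hec : e ∈ Subgroup.centralizer ((S : Subgroup G) : Set G))
    (hfix : ∀ n ∈ Subgroup.normalizer ((S : Subgroup G) : Set G), n * e * n⁻¹ = e) :
    ∃ g : G, g * e * g⁻¹ ∈ S ∧
      g * e * g⁻¹ ∉ Subgroup.centralizer ((S : Subgroup G) : Set G) := by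
  haveI : Fact (Nat.Prime 2) := ⟨Nat.prime_two⟩
  obtain ⟨g, hgS, hne⟩ := exists_fused hss S he heS
  refine ⟨g, hgS, fun hc => hne ?_⟩
  obtain ⟨m, hm, hm'⟩ := Sylow.conj_eq_normalizer_conj_of_mem_centralizer S e g⁻¹ hec
    (by rw [inv_inv]; exact hc)
  rw [inv_inv] at hm'
  rw [hm']
  simpa using hfix m⁻¹ (inv_mem hm)

/-- A Sylow subgroup contains an element of order four among the powers of a larger element. -/
theorem exists_power_four {g : G} {k : ℕ} (hk : orderOf g = 2 ^ (k + 2)) :
    orderOf (g ^ 2 ^ k) = 4 := by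
  rw [orderOf_pow' g (pow_ne_zero k two_ne_zero), hk,
    Nat.gcd_eq_right (pow_dvd_pow 2 (by omega)), Nat.pow_div (by omega) two_pos]
  rw [show k + 2 - k = 2 by omega]
  norm_num

end CfsgLib.GWApps.SameNorm
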