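import Cfsg.Agent.Lib.GWApps.SameNorm.Setting

/-!
The case of a centralizer which is not a 2-group.
-/

set_option autoImplicit false

namespace CfsgLib.GWApps.SameNorm

universe u

/-- An element of order at most two. -/
theorem sq_one_of_small {G : Type u} [Group G] {g : G} {k : ℕ} (h : orderOf g = 2 ^ k)
    (hk : k ≤ 1) : g * g = 1 := by
  rw [← pow_two, ← orderOf_dvd_iff_pow_eq_one, h]
  exact pow_dvd_pow 2 hk

namespace Setting

variable {G : Type u} [Group G] [Finite G] (d : Setting G)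

/-- A smallest odd prime `p` dividing `|H|` with an element `x` of that order. -/
theorem exists_smallest (hodd : ∃ x ∈ d.H, Odd (orderOf x) ∧ x ≠ 1) :
    ∃ (p : ℕ) (x : G), p.Prime ∧ Odd p ∧ x ∈ d.H ∧ orderOf x = p ∧
      ∀ y ∈ d.H, (orderOf y).Prime → Odd (orderOf y) → p ≤ orderOf y := by
  classical
  obtain ⟨x, hx, hxo, hx1⟩ := hodd
  have hP : ∃ q, ∃ y ∈ d.H, orderOf y = q ∧ q.Prime ∧ Odd q := by
    have h1 : orderOf x ≠ 1 := fun h => hx1 (orderOf_eq_one_iff.1 h)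
    have hq := Nat.minFac_prime h1
    refine ⟨_, x ^ (orderOf x / (orderOf x).minFac), pow_mem hx _, ?_, hq,
      hxo.of_dvd_nat (Nat.minFac_dvd _)⟩
    exact orderOf_pow_orderOf_div (orderOf_pos x).ne' (Nat.minFac_dvd _)
  obtain ⟨y, hy, ho, hp, hpo⟩ := Nat.find_spec hP
  exact ⟨_, y, hp, hpo, hy, ho, fun w hw hwp hwo => Nat.find_min' hP ⟨w, hw, rfl, hwp, hwo⟩⟩

variable {p : ℕ} {x : G} (hp : p.Prime) (hpo : Odd p) (hx : x ∈ d.H) (hxp : orderOf x = p)

omit [Finite G] in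
theorem iterate_conj {y : G} {i : ℕ} (h : y * x * y⁻¹ = x ^ i) :
    ∀ k, y ^ k * x * (y ^ k)⁻¹ = x ^ i ^ k
  | 0 => by simp
  | k + 1 => by
    calc y ^ (k + 1) * x * (y ^ (k + 1))⁻¹ = y * (y ^ k * x * (y ^ k)⁻¹) * y⁻¹ := by
          rw [pow_succ']; group
      _ = (y * x * y⁻¹) ^ i ^ k := by rw [iterate_conj h k, conj_pow]
      _ = x ^ i ^ (k + 1) := by rw [h, ← pow_mul, pow_succ' i k]

include hp hpo hx hxp in
theorem conj_exponent {c : G} (hc : c ∈ d.H) : ∃ i : ℕ, c * x * c⁻¹ = x ^ i := by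
  have h := d.odd_conj hx (hxp ▸ hpo) hc
  rw [← mem_powers_iff_mem_zpowers] at h
  obtain ⟨i, hi⟩ := h
  exact ⟨i, hi.symm⟩

include hp hpo hx hxp in
theorem odd_commutes (hmin : ∀ y ∈ d.H, (orderOf y).Prime → Odd (orderOf y) → p ≤ orderOf y)
    {y : G} (hy : y ∈ d.H) (hyo : Odd (orderOf y)) : Commute y x := by
  haveI : Fact p.Prime := ⟨hp⟩
  obtain ⟨i, hi⟩ := d.conj_exponent hp hpo hx hxp hy
  have h1 := iterate_conj hi (orderOf y)
  rw [pow_orderOf_eq_one, one_mul, inv_one, mul_one] at h1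
  have h2 : (i : ZMod p) ^ orderOf y = 1 := by
    have h3 : i ^ orderOf y ≡ 1 [MOD orderOf x] :=
      pow_eq_pow_iff_modEq.1 (by rw [pow_one, ← h1])
    rw [hxp, ← ZMod.natCast_eq_natCast_iff] at h3
    simpa using h3
  have h0 : (i : ZMod p) ≠ 0 := fun h => by
    rw [h, zero_pow (orderOf_pos y).ne'] at h2
    exact zero_ne_one h2
  have hgcd : Nat.gcd (orderOf y) (p - 1) = 1 := by
    by_contra hne
    have hq := Nat.minFac_prime hne
    have hd1 := (Nat.minFac_dvd _).trans (Nat.gcd_dvd_left (orderOf y) (p - 1))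
    have hd2 := (Nat.minFac_dvd _).trans (Nat.gcd_dvd_right (orderOf y) (p - 1))
    have ho := orderOf_pow_orderOf_div (orderOf_pos y).ne' hd1
    have h4 := hmin _ (pow_mem hy _) (ho.symm ▸ hq) (ho.symm ▸ hyo.of_dvd_nat hd1)
    rw [ho] at h4
    have := hp.two_le
    have := Nat.le_of_dvd (by omega) hd2
    omega
  have h5 : (i : ZMod p) = 1 := by
    have h6 := pow_gcd_eq_one.2 ⟨h2, ZMod.pow_card_sub_one_eq_one h0⟩
    rwa [hgcd, pow_one] at h6
  have h7 : x ^ i = x ^ 1 := pow_eq_pow_iff_modEq.2 (by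
    rw [hxp, ← ZMod.natCast_eq_natCast_iff, h5, Nat.cast_one])
  rw [h7, pow_one] at hi
  exact mul_inv_eq_iff_eq_mul.1 hi

include hp hpo hx hxp in
/-- Elements with a central involution among their powers centralize `x`. -/
theorem special_commutes {g j : G} (hj : d.IsCentral j) (hjg : j ∈ Subgroup.zpowers g)
    (hg : g ∈ d.H) : Commute g x := by
  have h1 : g * x * g⁻¹ * x⁻¹ ∈ Subgroup.zpowers x :=
    mul_mem (d.odd_conj hx (hxp ▸ hpo) hg) (inv_mem (Subgroup.mem_zpowers x))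
  have h2 : g * x * g⁻¹ * x⁻¹ ∈ Subgroup.zpowers g := by
    have h := inv_mem (d.special_conj hj hjg hx)
    rw [show g * x * g⁻¹ * x⁻¹ = g * (x * g * x⁻¹)⁻¹ by group]
    exact mul_mem (Subgroup.mem_zpowers g) h
  by_cases hc : g * x * g⁻¹ * x⁻¹ = 1
  · exact mul_inv_eq_iff_eq_mul.1 (mul_inv_eq_one.1 hc)
  · haveI : Fact p.Prime := ⟨hp⟩
    have h3 : Subgroup.zpowers (g * x * g⁻¹ * x⁻¹) = Subgroup.zpowers x := by
      refine Subgroup.eq_of_le_of_card_ge (Subgroup.zpowers_le.2 h1) ?_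
      rw [Nat.card_zpowers, Nat.card_zpowers, hxp]
      have h4 := orderOf_dvd_of_mem_zpowers h1
      rw [hxp] at h4
      rcases (Nat.dvd_prime hp).1 h4 with h5 | h5
      · exact absurd (orderOf_eq_one_iff.1 h5) hc
      · exact h5.ge
    exact (commute_of_mem_zpowers
      (Subgroup.zpowers_le.2 h2 (h3 ▸ Subgroup.mem_zpowers x))).symm

include hp hpo hx hxp in
theorem not_commute_cases (hmin : ∀ y ∈ d.H, (orderOf y).Prime → Odd (orderOf y) → p ≤ orderOf y)
    {h : G} (hh : h ∈ d.H) (hnc : ¬ Commute h x) :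
    (∃ k : ℕ, orderOf h = 2 ^ k) ∧ ∀ e ∈ Subgroup.zpowers h, orderOf e = 2 →
      ¬ Commute e x := by
  have hev : Even (orderOf h) := Nat.not_odd_iff_even.1 fun ho =>
    hnc (d.odd_commutes hp hpo hx hxp hmin hh ho)
  have hno : ∀ e ∈ Subgroup.zpowers h, orderOf e = 2 → ∀ y ∈ d.H, Odd (orderOf y) →
      Commute y e → y = 1 := by
    intro e he he2 y hy hyo hcom
    by_contra hy1
    have heH : e ∈ d.H := Subgroup.zpowers_le.2 hh he
    exact hnc (d.special_commutes hp hpo hx hxp (d.central_of_odd hy hyo hy1 heH he2 hcom) he hh)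
  refine ⟨?_, fun e he he2 hcom => ?_⟩
  · obtain ⟨e, he, he2⟩ := exists_involution hev
    obtain ⟨k, m, hm, hkm⟩ := Nat.exists_eq_two_pow_mul_odd (orderOf_pos h).ne'
    refine ⟨k, ?_⟩
    have hym : orderOf (h ^ 2 ^ k) = m := by
      rw [orderOf_pow' h (pow_ne_zero k two_ne_zero), hkm, Nat.gcd_mul_right_left,
        Nat.mul_div_cancel_left _ (by positivity)]
    have h1 := hno e he he2 (h ^ 2 ^ k) (pow_mem hh _) (hym.symm ▸ hm)
      (((commute_of_mem_zpowers he).symm).pow_left _)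
    rw [h1, orderOf_one] at hym
    rw [hkm, ← hym, mul_one]
  · have := hno e he he2 x hx (hxp ▸ hpo) hcom.symm
    rw [this, orderOf_one] at hxp
    exact hp.one_lt.ne hxp

include hp hpo hx hxp in
/-- Two involutions not centralizing `x` invert it. -/
theorem inverts {e : G} (heH : e ∈ d.H) (he2 : orderOf e = 2) (hnc : ¬ Commute e x) :
    e * x * e⁻¹ = x⁻¹ := by
  haveI : Fact p.Prime := ⟨hp⟩
  obtain ⟨i, hi⟩ := d.conj_exponent hp hpo hx hxp heH
  have h1 := iterate_conj hi 2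
  rw [pow_two e, involution_sq he2, one_mul, inv_one, mul_one] at h1
  have h3 : i ^ 2 ≡ 1 [MOD orderOf x] := pow_eq_pow_iff_modEq.1 (by rw [pow_one, ← h1])
  rw [hxp, ← ZMod.natCast_eq_natCast_iff] at h3
  push_cast at h3
  rcases sq_eq_one_iff.1 h3 with h | h
  · refine absurd ?_ hnc
    have h7 : x ^ i = x ^ 1 := pow_eq_pow_iff_modEq.2 (by
      rw [hxp, ← ZMod.natCast_eq_natCast_iff, h, Nat.cast_one])
    rw [h7, pow_one] at hi
    exact mul_inv_eq_iff_eq_mul.1 hi
  · have h7 : orderOf x ∣ i + 1 := by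
      rw [hxp, ← ZMod.natCast_eq_zero_iff]
      push_cast
      rw [h, neg_add_cancel]
    rw [hi, eq_inv_iff_mul_eq_one, ← pow_succ]
    exact orderOf_dvd_iff_pow_eq_one.1 h7

include hp hpo hx hxp in
/-- An element of `H` not centralizing `x` is an involution. -/
theorem sq_eq_one_of_not_commute
    (hmin : ∀ y ∈ d.H, (orderOf y).Prime → Odd (orderOf y) → p ≤ orderOf y)
    {h₀ : G} (hh₀ : h₀ ∈ d.H) (hnc₀ : ¬ Commute h₀ x) : h₀ ^ 2 = 1 := by
  by_contra hsq
  haveI : Fact (Nat.Prime 2) := ⟨Nat.prime_two⟩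
  haveI : Fact p.Prime := ⟨hp⟩
  obtain ⟨⟨k₀, hk₀⟩, -⟩ := d.not_commute_cases hp hpo hx hxp hmin hh₀ hnc₀
  -- a conjugate in `S`
  obtain ⟨c, hc, hcS⟩ : ∃ c ∈ d.H, c * h₀ * c⁻¹ ∈ d.S := by
    let SH : Sylow 2 d.H := d.S.subtype d.hSH
    have hP : IsPGroup 2 (Subgroup.zpowers (⟨h₀, hh₀⟩ : d.H)) :=
      IsPGroup.of_card (n := k₀) (by rw [Nat.card_zpowers, Subgroup.orderOf_mk, hk₀])
    obtain ⟨T, hT⟩ := hP.exists_le_sylow
    obtain ⟨c, hc⟩ := MulAction.exists_smul_eq d.H T SH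
    refine ⟨c, c.2, ?_⟩
    have h1 : (MulAut.conj c) ⟨h₀, hh₀⟩ ∈ (c • T : Sylow 2 d.H) := by
      exact ⟨_, hT (Subgroup.mem_zpowers _), rfl⟩
    rw [hc] at h1
    exact h1
  set h := c * h₀ * c⁻¹ with hh'
  have hh : h ∈ d.H := d.hSH hcS
  have hord : orderOf h = 2 ^ k₀ := by rw [hh', conj_orderOf, hk₀]
  have hnc : ¬ Commute h x := by
    intro hcom
    apply hnc₀
    obtain ⟨i, hi⟩ := d.conj_exponent hp hpo hx hxp (inv_mem hc)
    rw [inv_inv] at hi
    have h1 : Commute (c⁻¹ * h * c) (c⁻¹ * x * c) := by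
      unfold Commute SemiconjBy
      calc c⁻¹ * h * c * (c⁻¹ * x * c) = c⁻¹ * (h * x) * c := by group
        _ = c⁻¹ * x * c * (c⁻¹ * h * c) := by rw [hcom.eq]; group
    rw [hh', show c⁻¹ * (c * h₀ * c⁻¹) * c = h₀ by group, hi] at h1
    -- `x` is a power of `x ^ i`
    have hgen : x ∈ Subgroup.zpowers (x ^ i) := by
      refine mem_zpowers_pow_iff.2 ?_
      rw [hxp]
      refine Nat.Coprime.symm ((hp.coprime_iff_not_dvd).2 fun hd => ?_)
      have h2 : c⁻¹ * x * c = 1 := by rw [hi, orderOf_dvd_iff_pow_eq_one.1 (hxp ▸ hd)]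
      have h3 : x = 1 := by
        calc x = c * (c⁻¹ * x * c) * c⁻¹ := by group
          _ = 1 := by rw [h2]; group
      rw [h3, orderOf_one] at hxp
      exact hp.one_lt.ne hxp
    obtain ⟨j, hj⟩ := Subgroup.mem_zpowers_iff.1 hgen
    rw [← hj]
    exact h1.zpow_right j
  obtain ⟨k, rfl⟩ : ∃ k, k₀ = k + 2 := by
    refine ⟨k₀ - 2, ?_⟩
    by_contra hh2
    exact hsq (by rw [pow_two]; exact sq_one_of_small hk₀ (by omega))
  set h' := h ^ 2 ^ k with hh4
  have ho4 : orderOf h' = 4 := exists_power_four hord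
  set e := h' ^ 2 with hedef
  have he2 : orderOf e = 2 := by rw [hedef, orderOf_pow, ho4]; rfl
  have heh : e ∈ Subgroup.zpowers h := pow_mem (pow_mem (Subgroup.mem_zpowers h) _) _
  have heH : e ∈ d.H := Subgroup.zpowers_le.2 hh heh
  have henc := (d.not_commute_cases hp hpo hx hxp hmin hh hnc).2 e heh he2
  have heinv := d.inverts hp hpo hx hxp heH he2 henc
  have heS : e ∈ d.S := (Subgroup.zpowers_le.2 hcS) heh
  -- involutions of `H` centralizing `x` are central
  have hcen : ∀ f ∈ d.H, orderOf f = 2 → Commute f x → d.IsCentral f := fun f hf hf2 hcom =>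
    d.central_of_odd hx (hxp ▸ hpo) (fun h1 => by rw [h1, orderOf_one] at hxp; exact hp.one_lt.ne hxp)
      hf hf2 hcom.symm
  -- `e` inverts the centralizer of `x` in `S`
  have hinvR : ∀ r ∈ d.S, Commute r x → e * r * e⁻¹ = r⁻¹ := by
    intro r hr hrx
    have hre : r * e ∈ d.H := mul_mem (d.hSH hr) heH
    have hrenc : ¬ Commute (r * e) x := fun hc' => henc (by
      have h1 := (hrx.inv_left).mul_left hc'
      rwa [inv_mul_cancel_left] at h1)
    by_contra hne
    have hsq2 : (r * e) * (r * e) ≠ 1 := by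
      intro h1
      apply hne
      calc e * r * e⁻¹ = r⁻¹ * ((r * e) * (r * e)) * (e * e)⁻¹ := by group
        _ = r⁻¹ := by rw [h1, involution_sq he2]; group
    have hcom2 : Commute ((r * e) * (r * e)) x := by
      have h2 : r * x * r⁻¹ = x := mul_inv_eq_iff_eq_mul.2 hrx.eq
      have h3 : r * e * x * (r * e)⁻¹ = x⁻¹ := by
        calc r * e * x * (r * e)⁻¹ = r * (e * x * e⁻¹) * r⁻¹ := by group
          _ = (r * x * r⁻¹)⁻¹ := by rw [heinv]; group
          _ = x⁻¹ := by rw [h2]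
      refine mul_inv_eq_iff_eq_mul.1 ?_
      calc r * e * (r * e) * x * (r * e * (r * e))⁻¹
          = r * e * (r * e * x * (r * e)⁻¹) * (r * e)⁻¹ := by group
        _ = r * e * x⁻¹ * (r * e)⁻¹ := by rw [h3]
        _ = (r * e * x * (r * e)⁻¹)⁻¹ := by group
        _ = x := by rw [h3, inv_inv]
    obtain ⟨⟨m, hm⟩, hinv⟩ := d.not_commute_cases hp hpo hx hxp hmin hre hrenc
    have hm2 : 2 ≤ m := by
      by_contra hm1
      exact hsq2 (sq_one_of_small hm (by omega))
    obtain ⟨m, rfl⟩ : ∃ m', m = m' + 2 := ⟨m - 2, by omega⟩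
    have h4 := exists_power_four hm
    refine hinv (((r * e) ^ 2 ^ m) ^ 2) (pow_mem (pow_mem (Subgroup.mem_zpowers _) _) _)
      (by rw [orderOf_pow, h4]; rfl) ?_
    rw [← pow_mul, mul_comm, pow_mul, pow_two]
    exact hcom2.pow_left _
  -- the centralizer of `x` in `S` is elementary abelian and central
  have hR2 : ∀ r ∈ d.S, Commute r x → r * r = 1 := by
    intro r hr hrx
    by_contra hne
    haveI : Fact (Nat.Prime 2) := ⟨Nat.prime_two⟩
    obtain ⟨m, hm⟩ := IsPGroup.iff_orderOf.1 d.S.isPGroup' ⟨r, hr⟩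
    rw [Subgroup.orderOf_mk] at hm
    obtain ⟨m, rfl⟩ : ∃ m', m = m' + 2 := by
      refine ⟨m - 2, ?_⟩
      by_contra hm1
      exact hne (sq_one_of_small hm (by omega))
    set r' := r ^ 2 ^ m with hr'
    have hr4 : orderOf r' = 4 := exists_power_four hm
    have hrS : r' ∈ d.S := (d.S : Subgroup G).pow_mem hr _
    have hrc : Commute r' x := hrx.pow_left _
    have hj := hcen (r' ^ 2) (d.hSH ((d.S : Subgroup G).pow_mem hrS 2))
      (by rw [orderOf_pow, hr4]; rfl) (hrc.pow_left 2)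
    have hjr : r' ^ 2 ∈ Subgroup.zpowers r' := pow_mem (Subgroup.mem_zpowers _) 2
    have hconj := d.special_conj hj hjr hh
    rw [← mem_powers_iff_mem_zpowers] at hconj
    obtain ⟨i, hi⟩ := hconj
    dsimp only at hi
    have hi2 : h * h * r' * (h * h)⁻¹ = r' ^ (i * i) := by
      calc h * h * r' * (h * h)⁻¹ = h * (h * r' * h⁻¹) * h⁻¹ := by group
        _ = h * r' ^ i * h⁻¹ := by rw [← hi]
        _ = (h * r' * h⁻¹) ^ i := conj_pow.symm
        _ = r' ^ (i * i) := by rw [← hi, ← pow_mul]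
    have hio : i % 2 = 1 := by
      have h1 : orderOf (r' ^ i) = 4 := by rw [hi, conj_orderOf, hr4]
      by_contra hev
      obtain ⟨t, rfl⟩ : 2 ∣ i := by omega
      have h2 : (r' ^ (2 * t)) ^ 2 = 1 := by
        rw [← pow_mul, show 2 * t * 2 = 4 * t by ring, pow_mul, ← hr4, pow_orderOf_eq_one, one_pow]
      have := Nat.le_of_dvd two_pos (orderOf_dvd_iff_pow_eq_one.2 h2)
      omega
    have hfix : Commute (h * h) r' := by
      refine mul_inv_eq_iff_eq_mul.1 (hi2.trans ?_)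
      conv_rhs => rw [← pow_one r']
      refine pow_eq_pow_iff_modEq.2 ?_
      rw [hr4]
      have h3 : i % 4 = 1 ∨ i % 4 = 3 := by omega
      unfold Nat.ModEq
      rw [Nat.mul_mod]
      rcases h3 with h3 | h3 <;> rw [h3]
    have hefix : Commute e r' := by
      have hk : e = (h * h) ^ 2 ^ k := by
        rw [hedef, hh4, ← pow_two, ← pow_mul, ← pow_mul, mul_comm]
      rw [hk]
      exact hfix.pow_left _
    have h5 := hinvR r' hrS hrc
    rw [mul_inv_eq_iff_eq_mul.2 hefix.eq, eq_inv_iff_mul_eq_one, ← pow_two] at h5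
    have := Nat.le_of_dvd two_pos (orderOf_dvd_iff_pow_eq_one.2 h5)
    omega
  -- `S` is abelian
  have hle : (d.S : Subgroup G) ≤ Subgroup.normalizer ((Subgroup.zpowers x : Subgroup G) : Set G) := by
    intro s hs
    rw [normalizer_odd d.hG d.hz (d.mem_H.1 hx) (hxp ▸ hpo)
      (fun h1 => by rw [h1, orderOf_one] at hxp; exact hp.one_lt.ne hxp), d.hHz]
    exact d.hSH hs
  let φ := (Subgroup.normalizerMonoidHom (Subgroup.zpowers x)).comp (Subgroup.inclusion hle)
  haveI : IsCyclic (MulAut (Subgroup.zpowers x)) := by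
    have e1 := IsCyclic.mulAutMulEquiv (Subgroup.zpowers x)
    rw [Nat.card_zpowers, hxp] at e1
    exact isCyclic_of_surjective e1.symm.toMonoidHom e1.symm.surjective
  have hker : φ.ker ≤ Subgroup.center (d.S : Subgroup G) := by
    intro s hs
    have h1 : ((φ s) ⟨x, Subgroup.mem_zpowers x⟩ : G) = x := by
      rw [show φ s = 1 from hs]; rfl
    have hsx : Commute (s : G) x := mul_inv_eq_iff_eq_mul.1 h1
    rw [Subgroup.mem_center_iff]
    intro t
    rcases eq_or_ne (s : G) 1 with hs1 | hs1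
    · rw [show s = 1 from Subtype.ext hs1, mul_one, one_mul]
    · exact Subtype.ext ((hcen s (d.hSH s.2) (orderOf_two_of_sq (hR2 s s.2 hsx) hs1) hsx).comm t
        (d.hSH t.2))
  have habS : ∀ s ∈ d.S, ∀ t ∈ d.S, Commute s t := fun s hs t ht => by
    haveI := φ.isMulCommutative_of_isCyclic_of_ker_le_center hker
    exact congrArg Subtype.val (mul_comm' (⟨s, hs⟩ : (d.S : Subgroup G)) ⟨t, ht⟩)
  -- squares
  have hsquare : ∀ s ∈ d.S, s * s ≠ 1 → (s * s) * (s * s) = 1 → ¬ Commute (s * s) x := by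
    intro s hs hs1 hs4 hcom
    have hj := hcen (s * s) (d.hSH (mul_mem (s := d.S) hs hs)) (orderOf_two_of_sq hs4 hs1) hcom
    exact hs1 (hR2 s hs (d.special_commutes hp hpo hx hxp hj
      (mul_mem (Subgroup.mem_zpowers s) (Subgroup.mem_zpowers s)) (d.hSH hs)))
  have hh'S : h' ∈ d.S := (d.S : Subgroup G).pow_mem hcS _
  have hesq : e = h' * h' := by rw [hedef, pow_two]
  have huniq : ∀ s ∈ d.S, orderOf (s * s) = 2 → s * s = e := by
    intro s hs hs2
    have hs1 := involution_ne_one hs2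
    have hnc1 := hsquare s hs hs1 (involution_sq hs2)
    have hinv1 := d.inverts hp hpo hx hxp (d.hSH (mul_mem (s := d.S) hs hs)) hs2 hnc1
    by_contra hne
    have hcomm := habS s hs h' hh'S
    have hprod : (s * h') * (s * h') = (s * s) * e := by
      rw [hesq, hcomm.symm.mul_mul_mul_comm]
    have hes : Commute (s * s) e := by rw [hesq]; exact (hcomm.mul_left hcomm).mul_right (hcomm.mul_left hcomm)
    refine hsquare (s * h') (mul_mem (s := d.S) hs hh'S) (fun h1 => hne ?_) ?_ ?_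
    · rw [hprod] at h1
      rw [eq_inv_of_mul_eq_one_left h1, inv_eq_of_mul_eq_one_right (involution_sq he2)]
    · rw [hprod, hes.symm.mul_mul_mul_comm, involution_sq hs2, involution_sq he2, one_mul]
    · rw [hprod]
      refine mul_inv_eq_iff_eq_mul.1 ?_
      calc s * s * e * x * (s * s * e)⁻¹ = s * s * (e * x * e⁻¹) * (s * s)⁻¹ := by group
        _ = s * s * x⁻¹ * (s * s)⁻¹ := by rw [heinv]
        _ = (s * s * x * (s * s)⁻¹)⁻¹ := (conj_inv (a := x) (b := s * s)).symm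
        _ = x := by rw [hinv1, inv_inv]
  obtain ⟨g, hgS, hgc⟩ := exists_fused_outside d.hss d.S he2 heS
    (Subgroup.mem_centralizer_iff.2 fun s hs => habS s hs e heS) (by
      intro n hn
      have hnS : n * h' * n⁻¹ ∈ d.S := (Subgroup.mem_normalizer_iff.1 hn h').1 hh'S
      have h1 : n * e * n⁻¹ = (n * h' * n⁻¹) * (n * h' * n⁻¹) := by rw [hesq]; group
      rw [h1]
      exact huniq _ hnS (by rw [← h1, conj_orderOf, he2]))
  exact hgc (Subgroup.mem_centralizer_iff.2 fun s hs => habS s hs _ hgS)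

/-- The centralizer is a D-group if it is not a 2-group. -/
theorem exists_dGroup_of_odd (hodd : ∃ x ∈ d.H, Odd (orderOf x) ∧ x ≠ 1) :
    ∃ A : Subgroup G, A < d.H ∧ ∀ g ∈ d.H, g ∉ A → g ^ 2 = 1 := by
  obtain ⟨p, x, hp, hpo, hx, hxp, hmin⟩ := d.exists_smallest hodd
  refine ⟨d.H ⊓ Subgroup.centralizer ({x} : Set G), lt_of_le_of_ne inf_le_left fun heq => ?_,
    fun g hg hgA => d.sq_eq_one_of_not_commute hp hpo hx hxp hmin hg fun hc =>
      hgA ⟨hg, Subgroup.mem_centralizer_singleton_iff.2 hc⟩⟩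
  refine d.false_of_dedekind fun g hg c hc => ?_
  rcases Nat.even_or_odd (orderOf g) with hev | ho
  · obtain ⟨e, he, he2⟩ := exists_involution hev
    have heH : e ∈ d.H := Subgroup.zpowers_le.2 hg he
    have hex : Commute e x := Subgroup.mem_centralizer_singleton_iff.1 (heq.ge heH).2
    refine d.special_conj (d.central_of_odd hx (hxp ▸ hpo) ?_ heH he2 hex.symm) he hc
    intro h1
    rw [h1, orderOf_one] at hxp
    exact hp.one_lt.ne hxp
  · exact d.odd_conj hg ho hc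

end Setting

end CfsgLib.GWApps.SameNorm
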