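import Cfsg.Agent.Lib.GWApps.SameNorm.Basic

/-!
A maximal non-abelian centralizer of an involution containing a Sylow 2-subgroup: the case in
which all its cyclic subgroups are normal is impossible.
-/

set_option autoImplicit false

open scoped commutatorElement

namespace CfsgLib.GWApps.SameNorm

universe u

/-- The setting: `H = C(z)` is non-abelian, contains the Sylow 2-subgroup `S` and is the centralizer
of each involution of its centre. -/
structure Setting (G : Type u) [Group G] where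
  /-- the centralizer -/
  H : Subgroup G
  /-- a Sylow 2-subgroup of it -/
  S : Sylow 2 G
  /-- an involution of its centre -/
  z : G
  hG : EqNorm G
  hss : Semisimple G
  hz : orderOf z = 2
  hHz : Subgroup.centralizer ({z} : Set G) = H
  hSH : (S : Subgroup G) ≤ H
  hna : ∃ a ∈ H, ∃ b ∈ H, a * b ≠ b * a
  hC : ∀ j ∈ H, orderOf j = 2 → (∀ h ∈ H, h * j = j * h) → Subgroup.centralizer ({j} : Set G) = H

namespace Setting

variable {G : Type u} [Group G] [Finite G] (d : Setting G)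

/-- An involution of the centre of `H`. -/
structure IsCentral (j : G) : Prop where
  mem : j ∈ d.H
  ord : orderOf j = 2
  comm : ∀ h ∈ d.H, h * j = j * h

theorem mem_H {g : G} : g ∈ d.H ↔ g * d.z = d.z * g := by
  rw [← d.hHz, Subgroup.mem_centralizer_singleton_iff]

theorem z_central : d.IsCentral d.z :=
  ⟨d.mem_H.2 rfl, d.hz, fun _ h => d.mem_H.1 h⟩

theorem cent {j : G} (hj : d.IsCentral j) : Subgroup.centralizer ({j} : Set G) = d.H :=
  d.hC j hj.mem hj.ord hj.comm

theorem mem_of_commute {j g : G} (hj : d.IsCentral j) (h : g * j = j * g) : g ∈ d.H :=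
  d.cent hj ▸ Subgroup.mem_centralizer_singleton_iff.2 h

/-- A cyclic subgroup through a central involution is normal in `H`. -/
theorem special_conj {j g c : G} (hj : d.IsCentral j) (hjg : j ∈ Subgroup.zpowers g) (hc : c ∈ d.H) :
    c * g * c⁻¹ ∈ Subgroup.zpowers g :=
  conj_mem d.hG hj.ord hjg (hj.comm c hc)

/-- A subgroup of odd order is normalized. -/
theorem odd_conj {x c : G} (hx : x ∈ d.H) (hxo : Odd (orderOf x)) (hc : c ∈ d.H) :
    c * x * c⁻¹ ∈ Subgroup.zpowers x := by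
  rcases eq_or_ne x 1 with rfl | h1
  · simp
  refine mem_normalizer_zpowers ?_
  rw [normalizer_odd d.hG d.hz (d.mem_H.1 hx) hxo h1, d.hHz]
  exact hc

/-- An involution of `H` commuting with a nontrivial element of odd order is central. -/
theorem central_of_odd {x e : G} (hx : x ∈ d.H) (hxo : Odd (orderOf x)) (h1 : x ≠ 1)
    (heH : e ∈ d.H) (he : orderOf e = 2) (hcom : Commute x e) : d.IsCentral e := by
  have h : Subgroup.centralizer ({e} : Set G) = d.H := by
    rw [← normalizer_odd d.hG he hcom hxo h1, normalizer_odd d.hG d.hz (d.mem_H.1 hx) hxo h1, d.hHz]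
  exact ⟨heH, he, fun c hc => Subgroup.mem_centralizer_singleton_iff.1 (h.symm ▸ hc)⟩

theorem mem_S_centralizer {j : G} (hj : d.IsCentral j) :
    j ∈ Subgroup.centralizer ((d.S : Subgroup G) : Set G) :=
  Subgroup.mem_centralizer_iff.2 fun s hs => hj.comm s (d.hSH hs)

theorem conj_S_of_mem {q : G} (hq : ∃ k : ℕ, orderOf q = 2 ^ k)
    (hn : ∀ s ∈ d.S, q * s * q⁻¹ ∈ d.S) : q ∈ d.S :=
  mem_of_normalizing d.S hq (Subgroup.mem_normalizer_fintype hn)

/-- A central involution lies in the Sylow subgroup. -/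
theorem central_mem_S {j : G} (hj : d.IsCentral j) : j ∈ d.S := by
  refine d.conj_S_of_mem ⟨1, by rw [hj.ord, pow_one]⟩ fun s hs => ?_
  rw [← hj.comm s (d.hSH hs), mul_assoc, mul_inv_cancel, mul_one]
  exact hs

/-- Not all cyclic subgroups of `H` are normal in it. -/
theorem false_of_dedekind (hall : ∀ g ∈ d.H, ∀ c ∈ d.H, c * g * c⁻¹ ∈ Subgroup.zpowers g) :
    False := by
  classical
  haveI : Fact (Nat.Prime 2) := ⟨Nat.prime_two⟩
  have hn : ∀ K : Subgroup d.H, K.Normal := fun K => ⟨fun k hk c => by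
    obtain ⟨i, hi⟩ := Subgroup.mem_zpowers_iff.1 (hall k k.2 c c.2)
    have : c * k * c⁻¹ = k ^ i := Subtype.ext (by simpa using hi.symm)
    rw [this]
    exact zpow_mem hk i⟩
  obtain ⟨a, ha, b, hb, hab⟩ := d.hna
  obtain ⟨Q, E, A, ⟨e⟩, ⟨hEc, -⟩, hAc, -, hEA, hQEA, htop⟩ := CfsgLib.Dedekind.hamiltonian hn
    ⟨⟨a, ha⟩, ⟨b, hb⟩, fun h => hab (congrArg Subtype.val h)⟩
  have hcomm : ∀ K L : Subgroup d.H, K ⊓ L = ⊥ → ∀ k ∈ K, ∀ l ∈ L, Commute k l :=
    fun K L h k hk l hl =>
      Subgroup.commute_of_normal_of_disjoint K L (hn K) (hn L) (disjoint_iff.2 h) k l hk hl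
  have hM : ∀ m ∈ E ⊔ A, ∀ m' ∈ E ⊔ A, Commute m m' := by
    intro m hm m' hm'
    haveI := hn A
    obtain ⟨e1, he1, a1, ha1, rfl⟩ := Subgroup.mem_sup_of_normal_right.1 hm
    obtain ⟨e2, he2, a2, ha2, rfl⟩ := Subgroup.mem_sup_of_normal_right.1 hm'
    have c1 : Commute e1 e2 := congrArg Subtype.val (hEc.is_comm.comm ⟨e1, he1⟩ ⟨e2, he2⟩)
    have c2 : Commute a1 a2 := congrArg Subtype.val (hAc.is_comm.comm ⟨a1, ha1⟩ ⟨a2, ha2⟩)
    exact ((c1.mul_right (hcomm E A hEA e1 he1 a2 ha2)).mul_left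
      (((hcomm E A hEA e2 he2 a1 ha1).symm).mul_right c2))
  set z0 : d.H := ((e.symm (QuaternionGroup.a 2) : Q) : d.H) with hz0
  have hq : ∀ x y : QuaternionGroup 2, ⁅x, y⁆ = 1 ∨ ⁅x, y⁆ = QuaternionGroup.a 2 := by
    simp only [commutatorElement_def]; decide
  have hcomQ : ∀ x y : Q, ⁅(x : d.H), (y : d.H)⁆ = 1 ∨ ⁅(x : d.H), (y : d.H)⁆ = z0 := by
    intro x y
    have h1 : ⁅x, y⁆ = e.symm ⁅e x, e y⁆ := by
      rw [map_commutatorElement, e.symm_apply_apply, e.symm_apply_apply]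
    have h2 : ⁅(x : d.H), (y : d.H)⁆ = ((⁅x, y⁆ : Q) : d.H) :=
      (map_commutatorElement Q.subtype x y).symm
    rcases hq (e x) (e y) with h | h
    · left; rw [h2, h1, h, map_one]; rfl
    · right; rw [h2, h1, h, hz0]
  have hall2 : ∀ x y : d.H, ⁅x, y⁆ = 1 ∨ ⁅x, y⁆ = z0 := by
    intro x y
    haveI := hn (E ⊔ A)
    obtain ⟨q, hq', m, hm, rfl⟩ := Subgroup.mem_sup_of_normal_right.1
      (htop ▸ Subgroup.mem_top x : x ∈ Q ⊔ (E ⊔ A))
    obtain ⟨q', hq'', m', hm', rfl⟩ := Subgroup.mem_sup_of_normal_right.1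
      (htop ▸ Subgroup.mem_top y : y ∈ Q ⊔ (E ⊔ A))
    have c1 := hcomm Q _ hQEA q hq' m hm
    have c2 := hcomm Q _ hQEA q hq' m' hm'
    have c3 := hcomm Q _ hQEA q' hq'' m hm
    have c4 := hcomm Q _ hQEA q' hq'' m' hm'
    have c5 := hM m hm m' hm'
    have heq : ⁅q * m, q' * m'⁆ = ⁅q, q'⁆ := by
      have h1 : (q * m) * (q' * m') = (q * q') * (m * m') := by
        rw [mul_assoc, ← mul_assoc m, ← c3.eq, mul_assoc q', ← mul_assoc]
      have h2 : (q' * m') * (q * m) = (q' * q) * (m * m') := by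
        rw [mul_assoc, ← mul_assoc m', ← c2.eq, mul_assoc q, ← mul_assoc, c5.eq]
      rw [commutatorElement_def, commutatorElement_def,
        show (q * m) * (q' * m') * (q * m)⁻¹ * (q' * m')⁻¹ =
          ((q * m) * (q' * m')) * ((q' * m') * (q * m))⁻¹ by group, h1, h2]
      group
    rw [heq]
    exact hcomQ ⟨q, hq'⟩ ⟨q', hq''⟩
  -- two non-commuting elements of `S`
  haveI := hn Q
  set x : Q := e.symm (QuaternionGroup.a 1) with hx
  set y : Q := e.symm (QuaternionGroup.xa 0) with hy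
  have hxy : ⁅x, y⁆ = e.symm (QuaternionGroup.a 2) := by
    rw [hx, hy, ← map_commutatorElement]
    congr 1
  have hord : ∀ q : Q, ∃ k : ℕ, orderOf ((q : d.H) : G) = 2 ^ k := fun q => by
    have h8 : orderOf q ∣ 2 ^ 3 := by
      rw [← orderOf_injective e.toMonoidHom e.injective q]
      refine (orderOf_dvd_natCard (e q)).trans ?_
      rw [Nat.card_eq_fintype_card, QuaternionGroup.card]; norm_num
    obtain ⟨k, -, hk⟩ := (Nat.dvd_prime_pow Nat.prime_two).1 h8
    exact ⟨k, by rw [Subgroup.orderOf_coe, Subgroup.orderOf_coe, hk]⟩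
  have hmemS : ∀ q : Q, ((q : d.H) : G) ∈ d.S := fun q => by
    refine d.conj_S_of_mem (hord q) fun s hs => ?_
    obtain ⟨i, hi⟩ := Subgroup.mem_zpowers_iff.1 (hall s (d.hSH hs) _ (q : d.H).2)
    rw [← hi]
    exact zpow_mem (show s ∈ (d.S : Subgroup G) from hs) i
  have hzz : (z0 : G) = ⁅((x : d.H) : G), ((y : d.H) : G)⁆ := by
    have h := congrArg (fun q : Q => ((q : d.H) : G)) hxy
    rw [hz0, ← h]
    exact (map_commutatorElement (d.H.subtype.comp Q.subtype) x y)
  have hz02 : orderOf (z0 : G) = 2 := by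
    rw [Subgroup.orderOf_coe, hz0, Subgroup.orderOf_coe, MulEquiv.orderOf_eq e.symm]
    exact orderOf_two_of_sq (by decide) (by decide)
  have hcent : ∀ w : G, orderOf w = 2 → w ∈ d.H →
      w ∈ Subgroup.centralizer ((d.S : Subgroup G) : Set G) := by
    intro w hw hwH
    rw [Subgroup.mem_centralizer_iff]
    intro s hs
    have h := involution_unique (conj_orderOf s w ▸ hw) hw (hall w hwH s (d.hSH hs))
      (Subgroup.mem_zpowers w)
    exact mul_inv_eq_iff_eq_mul.1 h
  have hz0S : (z0 : G) ∈ d.S := hmemS _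
  obtain ⟨g, hgS, hgc⟩ := exists_fused_outside d.hss d.S hz02 hz0S (hcent _ hz02 z0.2) (by
    intro n hn'
    have hnx : ∀ q : Q, n * ((q : d.H) : G) * n⁻¹ ∈ d.S := fun q =>
      (Subgroup.mem_normalizer_iff.1 hn' _).1 (hmemS q)
    have h1 : n * (z0 : G) * n⁻¹ =
        ⁅n * ((x : d.H) : G) * n⁻¹, n * ((y : d.H) : G) * n⁻¹⁆ := by
      rw [hzz, commutatorElement_def, commutatorElement_def]; group
    rcases hall2 ⟨_, d.hSH (hnx x)⟩ ⟨_, d.hSH (hnx y)⟩ with h | h
    · exfalso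
      have h' := congrArg Subtype.val h
      refine involution_ne_one hz02 (conj_eq_one_iff.1 (h1.trans ?_))
      exact (map_commutatorElement d.H.subtype _ _).symm.trans h'
    · have h' := congrArg Subtype.val h
      exact h1.trans ((map_commutatorElement d.H.subtype _ _).symm.trans h'))
  exact hgc (hcent _ (by rw [conj_orderOf]; exact hz02) (d.hSH hgS))

end Setting

end CfsgLib.GWApps.SameNorm
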