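import Cfsg.Agent.Lib.GWApps.SameNorm.Setting

/-!
The case of a centralizer which is a 2-group: the elements of order four with central square
commute and are inverted by the rest of the group, which consists of involutions.
-/

set_option autoImplicit false

namespace CfsgLib.GWApps.SameNorm

universe u

/-- An element `≠ 1` of order dividing four with inverse equal to itself has order two. -/
theorem sq_one_of_inv_eq {G : Type u} [Group G] {x : G} (h : x⁻¹ = x) : x * x = 1 := by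
  nth_rw 1 [← h]
  exact inv_mul_cancel x

namespace Setting

variable {G : Type u} [Group G] [Finite G] (d : Setting G)

/-- An element whose square is a central involution. -/
def Sp (u : G) : Prop := u ∈ d.H ∧ d.IsCentral (u * u)

omit [Finite G] in
theorem sp_four {u : G} (hu : d.Sp u) : u ^ 4 = 1 ∧ u ^ 2 ≠ 1 ∧ u⁻¹ ≠ u := by
  refine ⟨?_, ?_, fun h => involution_ne_one hu.2.ord (sq_one_of_inv_eq h)⟩
  · rw [show u ^ 4 = (u * u) * (u * u) by simp [pow_succ, mul_assoc], involution_sq hu.2.ord]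
  · rw [pow_two]
    exact involution_ne_one hu.2.ord

/-- A special element is fixed or inverted. -/
theorem sp_conj {u c : G} (hu : d.Sp u) (hc : c ∈ d.H) :
    c * u * c⁻¹ = u ∨ c * u * c⁻¹ = u⁻¹ := by
  obtain ⟨h4, -, -⟩ := d.sp_four hu
  have h := d.special_conj hu.2 (mul_mem (Subgroup.mem_zpowers u) (Subgroup.mem_zpowers u)) hc
  rw [← mem_powers_iff_mem_zpowers] at h
  obtain ⟨i, hi⟩ := h
  dsimp only at hi
  rw [← Nat.div_add_mod i 4, pow_add, pow_mul, h4, one_pow, one_mul] at hi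
  have hsq : c * (u * u) * c⁻¹ = u * u := by rw [hu.2.comm c hc, mul_inv_cancel_right]
  rcases (show i % 4 = 0 ∨ i % 4 = 1 ∨ i % 4 = 2 ∨ i % 4 = 3 by omega) with e | e | e | e <;>
    rw [e] at hi
  · exfalso
    apply involution_ne_one hu.2.ord
    rw [← hsq, show c * (u * u) * c⁻¹ = (c * u * c⁻¹) * (c * u * c⁻¹) by group, ← hi]
    simp
  · exact Or.inl (by rw [← hi, pow_one])
  · exfalso
    apply involution_ne_one hu.2.ord
    rw [← hsq, show c * (u * u) * c⁻¹ = (c * u * c⁻¹) * (c * u * c⁻¹) by group, ← hi, ← pow_add]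
    exact h4
  · refine Or.inr ?_
    rw [← hi, eq_inv_iff_mul_eq_one, ← pow_succ]
    exact h4

omit [Finite G] in
theorem sp_inv {u : G} (hu : d.Sp u) : u⁻¹ = u * (u * u) := by
  rw [inv_eq_iff_mul_eq_one, show u * (u * (u * u)) = u ^ 4 by simp [pow_succ, mul_assoc]]
  exact (d.sp_four hu).1

omit [Finite G] in
/-- An involution commuting with a special element gives another one. -/
theorem sp_mul_involution {u i : G} (hu : d.Sp u) (hi : i ∈ d.H) (hi2 : i * i = 1)
    (hc : Commute u i) : d.Sp (u * i) := by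
  refine ⟨mul_mem hu.1 hi, ?_⟩
  rw [hc.symm.mul_mul_mul_comm, hi2, mul_one]
  exact hu.2

variable (h2 : ∀ x ∈ d.H, ∃ k : ℕ, orderOf x = 2 ^ k)

include h2 in
theorem H_eq_S : d.H = (d.S : Subgroup G) := by
  haveI : Fact (Nat.Prime 2) := ⟨Nat.prime_two⟩
  refine d.S.is_maximal' ?_ d.hSH
  rw [IsPGroup.iff_orderOf]
  intro x
  obtain ⟨k, hk⟩ := h2 x x.2
  exact ⟨k, by rw [← Subgroup.orderOf_coe, hk]⟩

include h2 in
theorem exists_involution_sq {c : G} (hc : c ∈ d.H) (h1 : c ≠ 1) :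
    ∃ e ∈ Subgroup.zpowers c, orderOf e = 2 := by
  obtain ⟨k, hk⟩ := h2 c hc
  refine exists_involution (hk ▸ ?_)
  rcases k with - | k
  · rw [pow_zero] at hk
    exact absurd (orderOf_eq_one_iff.1 hk) h1
  · exact (Nat.even_pow' (Nat.succ_ne_zero k)).2 even_two

include h2 in
/-- The normalizer of the Sylow subgroup permutes the central involutions. -/
theorem central_conj {j n : G} (hn : n ∈ Subgroup.normalizer ((d.S : Subgroup G) : Set G))
    (hj : d.IsCentral j) : d.IsCentral (n * j * n⁻¹) := by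
  have hHS := d.H_eq_S h2
  refine ⟨hHS ▸ (Subgroup.mem_normalizer_iff.1 hn j).1 (hHS ▸ hj.mem), by rw [conj_orderOf, hj.ord],
    fun h hh => ?_⟩
  have h' : n⁻¹ * h * n ∈ d.H := by
    rw [hHS] at hh ⊢
    rw [Subgroup.mem_normalizer_iff.1 hn (n⁻¹ * h * n),
      show n * (n⁻¹ * h * n) * n⁻¹ = h by group]
    exact hh
  calc h * (n * j * n⁻¹) = n * (n⁻¹ * h * n * j) * n⁻¹ := by group
    _ = n * (j * (n⁻¹ * h * n)) * n⁻¹ := by rw [hj.comm _ h']
    _ = n * j * n⁻¹ * h := by group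

include h2 in
/-- No non-central involution fused to a central one centralizes a special element. -/
theorem false_of_fused {w g j u : G} (hw : w ∈ d.H) (hwc : ¬ ∀ h ∈ d.H, h * w = w * h)
    (hj : d.IsCentral j) (hgw : g * j * g⁻¹ = w) (hu : d.Sp u) (hcom : Commute u w) : False := by
  classical
  have hw2 : orderOf w = 2 := by rw [← hgw, conj_orderOf, hj.ord]
  have hww := involution_sq hw2
  set z := u * u with hzdef
  have hz : d.IsCentral z := hu.2
  have huw : d.Sp (u * w) := d.sp_mul_involution hu hw hww hcom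
  have huwz : (u * w) * (u * w) = z := by rw [hcom.symm.mul_mul_mul_comm, hww, mul_one]
  have hwz : w * z = z * w := hz.comm w hw
  have orbit : ∀ c ∈ d.H, c * w * c⁻¹ = w ∨ c * w * c⁻¹ = w * z := by
    intro c hc
    have hcw : c * w * c⁻¹ = (c * u * c⁻¹)⁻¹ * (c * (u * w) * c⁻¹) := by group
    have hinv : (u * w)⁻¹ = w * u⁻¹ := by
      rw [mul_inv_rev, inv_eq_of_mul_eq_one_right hww]
    rcases d.sp_conj hu hc with e1 | e1 <;> rcases d.sp_conj huw hc with e2 | e2 <;>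
      rw [hcw, e1, e2]
    · left; group
    · right
      rw [hinv, ← mul_assoc, hcom.inv_left.eq, mul_assoc, ← mul_inv_rev,
        inv_eq_of_mul_eq_one_right (involution_sq hz.ord)]
    · right
      rw [inv_inv, ← mul_assoc, hwz]
    · left
      rw [inv_inv, hinv, ← mul_assoc, hcom.eq, mul_inv_cancel_right]
  have hexc : ∃ c ∈ d.H, c * w * c⁻¹ ≠ w := by
    by_contra hh
    push Not at hh
    exact hwc fun h hh' => mul_inv_eq_iff_eq_mul.1 (hh h hh')
  obtain ⟨c₀, hc₀, hc₀w⟩ := hexc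
  set Y := d.H ⊓ Subgroup.centralizer ({w} : Set G) with hY
  have hmemY : ∀ y, y ∈ Y ↔ y ∈ d.H ∧ y * w = w * y := fun y => by
    rw [hY, Subgroup.mem_inf, Subgroup.mem_centralizer_singleton_iff]
  have hmul : ∀ a ∈ d.H, ∀ b ∈ d.H, a * w * a⁻¹ ≠ w → b * w * b⁻¹ ≠ w → a * b ∈ Y := by
    intro a ha b hb ha' hb'
    refine (hmemY _).2 ⟨mul_mem ha hb, mul_inv_eq_iff_eq_mul.1 ?_⟩
    calc a * b * w * (a * b)⁻¹ = a * (b * w * b⁻¹) * a⁻¹ := by group
      _ = a * w * a⁻¹ * (a * z * a⁻¹) := by rw [(orbit b hb).resolve_left hb']; group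
      _ = w * z * z := by
        rw [(orbit a ha).resolve_left ha', hz.comm a ha, mul_inv_cancel_right]
      _ = w := by rw [mul_assoc, involution_sq hz.ord, mul_one]
  -- `Y` has index two in `H`
  have hYH : Y ≤ d.H := inf_le_left
  have hidx : (Y.subgroupOf d.H).index = 2 := by
    rw [Subgroup.index_eq_two_iff]
    refine ⟨⟨c₀, hc₀⟩, fun b => ?_⟩
    by_cases hb : (b : G) ∈ Y
    · refine Or.inr ⟨Subgroup.mem_subgroupOf.2 hb, fun h => ?_⟩
      have h1 : c₀ ∈ Y := by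
        have := mul_mem (inv_mem hb) (Subgroup.mem_subgroupOf.1 h)
        simpa using this
      exact hc₀w (mul_inv_eq_iff_eq_mul.2 ((hmemY _).1 h1).2)
    · refine Or.inl ⟨Subgroup.mem_subgroupOf.2 (hmul b b.2 c₀ hc₀ (fun h => hb ((hmemY _).2
        ⟨b.2, mul_inv_eq_iff_eq_mul.1 h⟩)) hc₀w), fun h => hb (Subgroup.mem_subgroupOf.1 h)⟩
  -- the centralizer of `w`
  set W := Subgroup.centralizer ({w} : Set G) with hW
  have hYW : Y ≤ W := inf_le_right
  have hWmem : ∀ x, x ∈ W → g⁻¹ * x * g ∈ d.H := by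
    intro x hx
    rw [Subgroup.mem_centralizer_singleton_iff, ← hgw] at hx
    refine d.mem_of_commute hj ?_
    calc g⁻¹ * x * g * j = g⁻¹ * (x * (g * j * g⁻¹)) * g := by group
      _ = g⁻¹ * (g * j * g⁻¹ * x) * g := by rw [hx]
      _ = j * (g⁻¹ * x * g) := by group
  have hWeq : W = d.H.map (MulAut.conj g).toMonoidHom := by
    ext x
    constructor
    · intro hx
      exact ⟨g⁻¹ * x * g, hWmem x hx, show g * (g⁻¹ * x * g) * g⁻¹ = x by group⟩
    · rintro ⟨y, hy, rfl⟩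
      rw [Subgroup.mem_centralizer_singleton_iff, ← hgw]
      show g * y * g⁻¹ * (g * j * g⁻¹) = g * j * g⁻¹ * (g * y * g⁻¹)
      calc g * y * g⁻¹ * (g * j * g⁻¹) = g * (y * j) * g⁻¹ := by group
        _ = g * j * g⁻¹ * (g * y * g⁻¹) := by rw [hj.comm y hy]; group
  have hcardW : Nat.card W = Nat.card d.H := by
    rw [hWeq]
    exact Subgroup.card_map_of_injective (MulAut.conj g).injective
  have hidxW : (Y.subgroupOf W).index = 2 := by
    have e1 := (Y.subgroupOf d.H).index_mul_card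
    have e2 := (Y.subgroupOf W).index_mul_card
    rw [Nat.card_congr (Subgroup.subgroupOfEquivOfLe hYH).toEquiv, hidx] at e1
    rw [Nat.card_congr (Subgroup.subgroupOfEquivOfLe hYW).toEquiv, hcardW, ← e1] at e2
    exact Nat.eq_of_mul_eq_mul_right Nat.card_pos e2
  haveI hnH := Subgroup.normal_of_index_eq_two hidx
  haveI hnW := Subgroup.normal_of_index_eq_two hidxW
  have conjYH : ∀ c ∈ d.H, ∀ y ∈ Y, c * y * c⁻¹ ∈ Y := fun c hc y hy => by
    have := hnH.conj_mem ⟨y, hYH hy⟩ (Subgroup.mem_subgroupOf.2 hy) ⟨c, hc⟩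
    simpa [Subgroup.mem_subgroupOf] using this
  have conjYW : ∀ c ∈ W, ∀ y ∈ Y, c * y * c⁻¹ ∈ Y := fun c hc y hy => by
    have := hnW.conj_mem ⟨y, hYW hy⟩ (Subgroup.mem_subgroupOf.2 hy) ⟨c, hc⟩
    simpa [Subgroup.mem_subgroupOf] using this
  obtain ⟨c', hc'W, hc'Y⟩ : ∃ c' ∈ W, c' ∉ Y := by
    by_contra hh
    push Not at hh
    have hWH : W ≤ d.H := fun x hx => hYH (hh x hx)
    have hEq := Subgroup.eq_of_le_of_card_ge hWH hcardW.ge
    exact hwc fun h hh' => Subgroup.mem_centralizer_singleton_iff.1 (hEq.ge hh')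
  have huY : u ∈ Y := (hmemY _).2 ⟨hu.1, hcom.eq⟩
  set u1 := c' * u * c'⁻¹ with hu1
  set z1 := c' * z * c'⁻¹ with hz1
  have hu1Y : u1 ∈ Y := conjYW c' hc'W u huY
  have hu1sq : u1 * u1 = z1 := by rw [hu1, hz1, hzdef]; group
  have hz1o : orderOf z1 = 2 := by rw [hz1, conj_orderOf, hz.ord]
  have hz1H : z1 ∈ d.H := hu1sq ▸ mul_mem (hYH hu1Y) (hYH hu1Y)
  -- `z1` is not central in `H`
  have hz1nc : ¬ ∀ h ∈ d.H, h * z1 = z1 * h := by
    intro hall
    have hzc : d.IsCentral z1 := ⟨hz1H, hz1o, hall⟩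
    apply hc'Y
    refine (hmemY _).2 ⟨?_, Subgroup.mem_centralizer_singleton_iff.1 hc'W⟩
    obtain ⟨k, hk⟩ := h2 _ (hWmem c' hc'W)
    have hk' : orderOf c' = 2 ^ k := by
      rw [← hk]
      have := conj_orderOf g⁻¹ c'
      rw [inv_inv] at this
      exact this.symm
    refine d.hSH (d.conj_S_of_mem ⟨k, hk'⟩ fun s hs => ?_)
    have hsH := d.hSH hs
    have hmem : c' * s * c'⁻¹ ∈ d.H := d.mem_of_commute hzc (by
      rw [hz1]
      calc c' * s * c'⁻¹ * (c' * z * c'⁻¹) = c' * (s * z) * c'⁻¹ := by group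
        _ = c' * z * c'⁻¹ * (c' * s * c'⁻¹) := by rw [hz.comm s hsH]; group)
    rw [d.H_eq_S h2] at hmem
    exact hmem
  have hcomY : ∀ y ∈ Y, Commute y z1 := by
    intro y hy
    have h := hz.comm _ (hYH (conjYW c'⁻¹ (inv_mem hc'W) y hy))
    rw [inv_inv] at h
    show y * z1 = z1 * y
    calc y * z1 = c' * (c'⁻¹ * y * c' * z) * c'⁻¹ := by rw [hz1]; group
      _ = c' * (z * (c'⁻¹ * y * c')) * c'⁻¹ := by rw [h]
      _ = z1 * y := by rw [hz1]; group
  have hnormu1 : ∀ y ∈ Y, y * u1 * y⁻¹ ∈ Subgroup.zpowers u1 := by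
    intro y hy
    have h := d.special_conj hz (mul_mem (Subgroup.mem_zpowers u) (Subgroup.mem_zpowers u))
      (hYH (conjYW c'⁻¹ (inv_mem hc'W) y hy))
    obtain ⟨i, hi⟩ := Subgroup.mem_zpowers_iff.1 h
    refine Subgroup.mem_zpowers_iff.2 ⟨i, ?_⟩
    rw [hu1, conj_zpow, hi, inv_inv]
    group
  -- an element outside `Y` which is not an involution
  obtain ⟨c, hc, hcY, hcc⟩ : ∃ c ∈ d.H, c ∉ Y ∧ c * c ≠ 1 := by
    by_contra hh
    push Not at hh
    have hc₀Y : c₀ ∉ Y := fun h => hc₀w (mul_inv_eq_iff_eq_mul.2 ((hmemY _).1 h).2)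
    have hwY : w ∈ Y := (hmemY _).2 ⟨hw, rfl⟩
    have h1 := hh c₀ hc₀ hc₀Y
    have h3 := hh (c₀ * w) (mul_mem hc₀ hw) fun h => hc₀Y ((mul_mem_cancel_right hwY).1 h)
    apply hc₀w
    calc c₀ * w * c₀⁻¹ = c₀ * w * (c₀ * w) * w⁻¹ * (c₀ * c₀)⁻¹ := by group
      _ = w := by rw [h3, h1, inv_eq_of_mul_eq_one_right hww]; group
  have hcw : c * w * c⁻¹ = w * z := (orbit c hc).resolve_left fun h =>
    hcY ((hmemY _).2 ⟨hc, mul_inv_eq_iff_eq_mul.1 h⟩)
  have hccY : c * c ∈ Y := hmul c hc c hc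
    (fun h => hcY ((hmemY _).2 ⟨hc, mul_inv_eq_iff_eq_mul.1 h⟩))
    (fun h => hcY ((hmemY _).2 ⟨hc, mul_inv_eq_iff_eq_mul.1 h⟩))
  obtain ⟨e, he, he2⟩ := d.exists_involution_sq h2 (mul_mem hc hc) hcc
  have hec : e ∈ Subgroup.zpowers c :=
    Subgroup.zpowers_le.2 (mul_mem (Subgroup.mem_zpowers c) (Subgroup.mem_zpowers c)) he
  have hew : Commute w e := (((hmemY _).1 (Subgroup.zpowers_le.2 hccY he)).2).symm
  have hwcw : w * c * w⁻¹ = z * c := by
    calc w * c * w⁻¹ = w * (c * w * c⁻¹) * c := by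
          rw [inv_eq_of_mul_eq_one_right hww]; group
      _ = z * c := by rw [hcw, ← mul_assoc, hww, one_mul]
  have hzc : z ∈ Subgroup.zpowers c := by
    have h := conj_mem d.hG he2 hec hew
    rw [hwcw] at h
    exact (Subgroup.mul_mem_cancel_right _ (Subgroup.mem_zpowers c)).1 h
  set v := c * u1 * c⁻¹ * u1⁻¹ with hv
  have hvc : v ∈ Subgroup.zpowers c := by
    rw [hv, show c * u1 * c⁻¹ * u1⁻¹ = c * (u1 * c * u1⁻¹)⁻¹ by group]
    exact mul_mem (Subgroup.mem_zpowers c) (inv_mem (d.special_conj hz hzc (hYH hu1Y)))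
  have hvv : v * v = 1 := by
    by_contra hne
    have h := hnormu1 (c * c) hccY
    have hvcom : c * v * c⁻¹ = v := mul_inv_eq_iff_eq_mul.2 (commute_of_mem_zpowers hvc).symm.eq
    rw [show c * c * u1 * (c * c)⁻¹ = (c * v * c⁻¹) * v * u1 by rw [hv]; group, hvcom] at h
    have h' : v * v ∈ Subgroup.zpowers u1 :=
      (Subgroup.mul_mem_cancel_right _ (Subgroup.mem_zpowers u1)).1 h
    obtain ⟨e', he', he'2⟩ := d.exists_involution_sq h2
      (mul_mem (Subgroup.zpowers_le.2 hc hvc) (Subgroup.zpowers_le.2 hc hvc)) hne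
    have e1 : e' = z := involution_unique he'2 hz.ord
      (Subgroup.zpowers_le.2 (mul_mem hvc hvc) he') hzc
    have e2 : e' = z1 := involution_unique he'2 hz1o (Subgroup.zpowers_le.2 h' he')
      (hu1sq ▸ mul_mem (Subgroup.mem_zpowers u1) (Subgroup.mem_zpowers u1))
    exact hz1nc fun h hh => by rw [← e2, e1]; exact hz.comm h hh
  have hvu : Commute v u1 := by
    rcases eq_or_ne v 1 with h | h
    · rw [h]; exact Commute.one_left u1
    · rw [involution_unique (orderOf_two_of_sq hvv h) hz.ord hvc hzc]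
      exact (hz.comm u1 (hYH hu1Y)).symm
  have hcz1 : c * z1 * c⁻¹ = z1 := by
    calc c * z1 * c⁻¹ = (v * u1) * (v * u1) := by rw [← hu1sq, hv]; group
      _ = z1 := by rw [hvu.symm.mul_mul_mul_comm, hvv, one_mul, hu1sq]
  refine hz1nc fun h hh => ?_
  by_cases hhY : h ∈ Y
  · exact (hcomY h hhY).eq
  · have hcw' : c⁻¹ * w * c⁻¹⁻¹ ≠ w := fun hh' => by
      apply hcY
      refine (hmemY _).2 ⟨hc, ?_⟩
      rw [inv_inv] at hh'
      calc c * w = c * (c⁻¹ * w * c) := by rw [hh']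
        _ = w * c := by group
    have h3 := hmul c⁻¹ (inv_mem hc) h hh hcw'
      (fun h' => hhY ((hmemY _).2 ⟨hh, mul_inv_eq_iff_eq_mul.1 h'⟩))
    have h4 := (hcomY _ h3).eq
    calc h * z1 = c * (c⁻¹ * h * z1) := by group
      _ = c * (z1 * (c⁻¹ * h)) := by rw [h4]
      _ = (c * z1 * c⁻¹) * h := by group
      _ = z1 * h := by rw [hcz1]

omit [Finite G] in
theorem sp_mul_of_sq_ne {u v : G} (hu : d.Sp u) (hv : d.Sp v) (hne : u * u ≠ v * v)
    (hc : Commute u v) : d.Sp (u * v) := by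
  refine ⟨mul_mem hu.1 hv.1, ?_⟩
  rw [hc.symm.mul_mul_mul_comm]
  refine ⟨mul_mem hu.2.mem hv.2.mem, orderOf_two_of_sq ?_ ?_, fun h hh => ?_⟩
  · rw [(show Commute (v * v) (u * u) from hu.2.comm _ hv.2.mem).mul_mul_mul_comm, involution_sq hu.2.ord,
      involution_sq hv.2.ord, one_mul]
  · intro h
    exact hne (by rw [eq_inv_of_mul_eq_one_left h, inv_eq_of_mul_eq_one_right
      (involution_sq hv.2.ord)])
  · rw [← mul_assoc, hu.2.comm h hh, mul_assoc, hv.2.comm h hh, ← mul_assoc]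

/-- Special elements with different squares commute. -/
theorem commute_of_sq_ne {u v : G} (hu : d.Sp u) (hv : d.Sp v) (hne : u * u ≠ v * v) :
    Commute u v := by
  by_contra hnc
  rcases d.sp_conj hv hu.1 with h | h
  · exact hnc (mul_inv_eq_iff_eq_mul.1 h)
  rcases d.sp_conj hu hv.1 with h' | h'
  · exact hnc (Commute.symm (mul_inv_eq_iff_eq_mul.1 h'))
  have h1 : u * v * u⁻¹ * v⁻¹ = v⁻¹ * v⁻¹ := by rw [h]
  have h3 : u * v * u⁻¹ * v⁻¹ = u * u := by
    rw [show u * v * u⁻¹ * v⁻¹ = u * (v * u * v⁻¹)⁻¹ * 1 by group, h', inv_inv, mul_one]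
  refine hne ?_
  rw [← h3, h1, ← mul_inv_rev, inv_eq_of_mul_eq_one_right (involution_sq hv.2.ord)]

/-- No element fixes one special element and inverts another with a different square. -/
theorem uniform_of_sq_ne {u v s : G} (hu : d.Sp u) (hv : d.Sp v) (hne : u * u ≠ v * v)
    (hs : s ∈ d.H) (h1 : s * u * s⁻¹ = u) (h2' : s * v * s⁻¹ = v⁻¹) : False := by
  have hc := d.commute_of_sq_ne hu hv hne
  have key : s * (u * v) * s⁻¹ = u * v⁻¹ := by
    rw [show s * (u * v) * s⁻¹ = (s * u * s⁻¹) * (s * v * s⁻¹) by group, h1, h2']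
  rcases d.sp_conj (d.sp_mul_of_sq_ne hu hv hne hc) hs with h | h <;> rw [key] at h
  · exact (d.sp_four hv).2.2 (mul_left_cancel h)
  · rw [mul_inv_rev, ← (hc.inv_inv).eq] at h
    exact (d.sp_four hu).2.2 (mul_right_cancel h).symm

include h2 in
/-- If all special elements have the same square, some fused non-central involution inverts all
of them. -/
theorem exists_inverting {u₀ : G} (hu₀ : d.Sp u₀) (hall : ∀ u, d.Sp u → u * u = u₀ * u₀) :
    ∃ w ∈ d.H, orderOf w = 2 ∧ ∀ u, d.Sp u → w * u * w⁻¹ = u⁻¹ := by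
  have hHS := d.H_eq_S h2
  obtain ⟨g, hgS, hgc⟩ := exists_fused_outside d.hss d.S hu₀.2.ord (d.central_mem_S hu₀.2)
    (d.mem_S_centralizer hu₀.2) (by
      intro n hn
      have hn' : n * u₀ * n⁻¹ ∈ d.H :=
        hHS ▸ (Subgroup.mem_normalizer_iff.1 hn u₀).1 (hHS ▸ hu₀.1)
      have e : (n * u₀ * n⁻¹) * (n * u₀ * n⁻¹) = n * (u₀ * u₀) * n⁻¹ := by group
      rw [← e]
      exact hall _ ⟨hn', e ▸ d.central_conj h2 hn hu₀.2⟩)
  refine ⟨g * (u₀ * u₀) * g⁻¹, d.hSH hgS, by rw [conj_orderOf, hu₀.2.ord], fun u hu => ?_⟩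
  refine (d.sp_conj hu (d.hSH hgS)).resolve_left fun h => ?_
  refine d.false_of_fused h2 (d.hSH hgS) (fun hall' => hgc ?_) hu₀.2 rfl hu
    (Commute.symm (mul_inv_eq_iff_eq_mul.1 h))
  exact Subgroup.mem_centralizer_iff.2 fun s hs => hall' s (d.hSH hs)

include h2 in
/-- Special elements commute. -/
theorem sp_commute {u v : G} (hu : d.Sp u) (hv : d.Sp v) : Commute u v := by
  by_contra hnc
  have hsame : u * u = v * v := by
    by_contra hne
    exact hnc (d.commute_of_sq_ne hu hv hne)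
  have hv1 : v * u * v⁻¹ = u⁻¹ := (d.sp_conj hu hv.1).resolve_left fun h =>
    hnc (Commute.symm (mul_inv_eq_iff_eq_mul.1 h))
  have hu1 : u * v * u⁻¹ = v⁻¹ := (d.sp_conj hv hu.1).resolve_left fun h =>
    hnc (mul_inv_eq_iff_eq_mul.1 h)
  have hvu : v * u = u⁻¹ * v := mul_inv_eq_iff_eq_mul.1 hv1
  have huv : d.Sp (u * v) := by
    refine ⟨mul_mem hu.1 hv.1, ?_⟩
    rw [mul_assoc, ← mul_assoc v, hvu, mul_assoc, mul_inv_cancel_left]
    exact hv.2
  by_cases hall : ∀ w, d.Sp w → w * w = u * u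
  · obtain ⟨w, -, -, hwinv⟩ := d.exists_inverting h2 hu hall
    have h1 := hwinv _ huv
    rw [show w * (u * v) * w⁻¹ = (w * u * w⁻¹) * (w * v * w⁻¹) by group, hwinv u hu, hwinv v hv,
      ← mul_inv_rev, inv_inj] at h1
    exact hnc h1.symm
  · push Not at hall
    obtain ⟨v3, hv3, hne⟩ := hall
    refine d.uniform_of_sq_ne hv3 hv (fun h => hne (h.trans hsame.symm)) hu.1 ?_ hu1
    exact mul_inv_eq_iff_eq_mul.2 (d.commute_of_sq_ne hu hv3 fun h => hne h.symm).eq

include h2 in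
/-- No element fixes one special element and inverts another. -/
theorem uniform {u v s : G} (hu : d.Sp u) (hv : d.Sp v) (hs : s ∈ d.H)
    (h1 : s * u * s⁻¹ = u) (h2' : s * v * s⁻¹ = v⁻¹) : False := by
  by_cases hall : ∀ w, d.Sp w → w * w = u * u
  swap
  · push Not at hall
    obtain ⟨v3, hv3, hne⟩ := hall
    by_cases hsame : u * u = v * v
    · rcases d.sp_conj hv3 hs with h | h
      · exact d.uniform_of_sq_ne hv3 hv (fun e => hne (e.trans hsame.symm)) hs h h2'
      · exact d.uniform_of_sq_ne hu hv3 (fun e => hne e.symm) hs h1 h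
    · exact d.uniform_of_sq_ne hu hv hsame hs h1 h2'
  obtain ⟨w, hw, hw2, hwinv⟩ := d.exists_inverting h2 hu hall
  set z := u * u with hzdef
  have hvv : v * v = z := hall v hv
  have hsv : v * s * v⁻¹ = z * s := by
    calc v * s * v⁻¹ = v * (s * v⁻¹) := by group
      _ = v * (v * s) := by
        rw [show s * v⁻¹ = (s * v * s⁻¹)⁻¹ * s by group, h2', inv_inv]
      _ = z * s := by rw [← mul_assoc, hvv]
  have hnosp : ∀ t, d.Sp t → t * v * t⁻¹ = v⁻¹ → False := fun t ht h => by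
    rw [(d.sp_commute h2 ht hv).eq, mul_inv_cancel_right] at h
    exact (d.sp_four hv).2.2 h.symm
  by_cases hss : s * s = 1
  · refine hnosp (u * s) (d.sp_mul_involution hu hs hss
      (Commute.symm (mul_inv_eq_iff_eq_mul.1 h1))) ?_
    rw [show u * s * v * (u * s)⁻¹ = u * (s * v * s⁻¹) * u⁻¹ by group, h2',
      (d.sp_commute h2 hu hv).inv_right.eq, mul_inv_cancel_right]
  obtain ⟨e, he, he2⟩ := d.exists_involution_sq h2 (mul_mem hs hs) hss
  have hes : e ∈ Subgroup.zpowers s :=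
    Subgroup.zpowers_le.2 (mul_mem (Subgroup.mem_zpowers s) (Subgroup.mem_zpowers s)) he
  have hev : Commute v e := by
    have hfix : Commute (s * s) v := by
      refine mul_inv_eq_iff_eq_mul.1 ?_
      rw [show s * s * v * (s * s)⁻¹ = s * (s * v * s⁻¹) * s⁻¹ by group, h2', ← conj_inv, h2',
        inv_inv]
    obtain ⟨i, rfl⟩ := Subgroup.mem_zpowers_iff.1 he
    exact hfix.symm.zpow_right i
  have hzs : z ∈ Subgroup.zpowers s := by
    have h := conj_mem d.hG he2 hes hev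
    rw [hsv] at h
    exact (Subgroup.mul_mem_cancel_right _ (Subgroup.mem_zpowers s)).1 h
  -- a special element among the powers of `s`
  obtain ⟨k, hk⟩ := h2 s hs
  obtain ⟨m, rfl⟩ : ∃ m, k = m + 2 := by
    refine ⟨k - 2, ?_⟩
    by_contra hk1
    apply hss
    rw [← pow_two, ← orderOf_dvd_iff_pow_eq_one, hk]
    exact pow_dvd_pow 2 (show k ≤ 1 by omega)
  set s' := s ^ 2 ^ m with hs'
  have ho4 := exists_power_four hk
  have hs'H : s' ∈ d.H := pow_mem hs _
  have hs'2 : s' * s' = z := involution_unique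
    (by rw [← pow_two, orderOf_pow, ho4]; rfl) hu.2.ord
    (mul_mem (pow_mem (Subgroup.mem_zpowers s) _) (pow_mem (Subgroup.mem_zpowers s) _)) hzs
  have hs'sp : d.Sp s' := ⟨hs'H, hs'2.symm ▸ hu.2⟩
  have hs'inv := hwinv s' hs'sp
  have hss' : s * s' * s⁻¹ = s' :=
    mul_inv_eq_iff_eq_mul.2 ((Commute.refl s).pow_right _).eq
  have hww := involution_sq hw2
  have hwsw : w * s * w ∈ Subgroup.zpowers s := by
    have h := d.special_conj hu.2 hzs hw
    rwa [inv_eq_of_mul_eq_one_right hww] at h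
  set q := (s * w) * (s * w) with hq
  have hqs : q ∈ Subgroup.zpowers s := by
    rw [hq, show s * w * (s * w) = s * (w * s * w) by group]
    exact mul_mem (Subgroup.mem_zpowers s) hwsw
  have hqw : Commute w q := by
    have e1 := (commute_of_mem_zpowers hwsw).eq
    show w * q = q * w
    calc w * q = (w * s * w) * s * w := by rw [hq]; group
      _ = s * (w * s * w) * w := by rw [e1]
      _ = q * w := by rw [hq]; group
  -- a special element centralizing `u` and `s'` outside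
  have hbad : ∀ t, d.Sp t → t * s' * t⁻¹ = s'⁻¹ → False := fun t ht h => by
    rw [(d.sp_commute h2 ht hs'sp).eq, mul_inv_cancel_right] at h
    exact (d.sp_four hs'sp).2.2 h.symm
  have hq2 : q * q = 1 := by
    by_contra hne
    obtain ⟨k', hk'⟩ := h2 q (Subgroup.zpowers_le.2 hs hqs)
    obtain ⟨m', rfl⟩ : ∃ m', k' = m' + 2 := by
      refine ⟨k' - 2, ?_⟩
      by_contra hk1
      apply hne
      rw [← pow_two, ← orderOf_dvd_iff_pow_eq_one, hk']
      exact pow_dvd_pow 2 (show k' ≤ 1 by omega)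
    have h4 := exists_power_four hk'
    have hr2 : q ^ 2 ^ m' * q ^ 2 ^ m' = z := involution_unique
      (by rw [← pow_two, orderOf_pow, h4]; rfl) hu.2.ord
      (mul_mem (pow_mem hqs _) (pow_mem hqs _)) hzs
    have hr : d.Sp (q ^ 2 ^ m') := ⟨Subgroup.zpowers_le.2 hs (pow_mem hqs _), hr2.symm ▸ hu.2⟩
    have h := hwinv _ hr
    rw [mul_inv_eq_iff_eq_mul.2 (hqw.pow_right _).eq] at h
    exact (d.sp_four hr).2.2 h.symm
  rcases eq_or_ne q 1 with hq1 | hq1
  · -- then `s * v * w` is special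
    have hsvw : (s * v * w) * (s * v * w) = z := by
      have e1 : w * v = v⁻¹ * w := mul_inv_eq_iff_eq_mul.1 (hwinv v hv)
      have e3 : v * s = z * s * v := mul_inv_eq_iff_eq_mul.1 hsv
      have e5 : w * s * v = s⁻¹ * w⁻¹ * v := by
        have : w * s = s⁻¹ * w⁻¹ := by
          rw [eq_inv_mul_iff_mul_eq, eq_inv_iff_mul_eq_one]
          calc s * (w * s) * w = q := by rw [hq]; group
            _ = 1 := hq1
        rw [this]
      calc s * v * w * (s * v * w) = s * v * (w * s * v) * w := by group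
        _ = s * (v * s⁻¹) * (w⁻¹ * v * w) := by rw [e5]; group
        _ = s * (v * s⁻¹) * v⁻¹ := by
          congr 1
          rw [inv_eq_of_mul_eq_one_right hww, e1, mul_assoc, hww, mul_one]
        _ = s * ((v * s * v⁻¹)⁻¹) := by group
        _ = z := by
          rw [hsv, mul_inv_rev, mul_inv_cancel_left,
            inv_eq_of_mul_eq_one_right (involution_sq hu.2.ord)]
    refine hbad (s * v * w) ⟨mul_mem (mul_mem hs hv.1) hw, hsvw.symm ▸ hu.2⟩ ?_
    rw [show s * v * w * s' * (s * v * w)⁻¹ = s * (v * (w * s' * w⁻¹) * v⁻¹) * s⁻¹ by group,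
      hs'inv, (d.sp_commute h2 hv hs'sp).inv_right.eq, mul_inv_cancel_right, ← conj_inv, hss']
  · have hqz : q = z :=
      involution_unique (orderOf_two_of_sq hq2 hq1) hu.2.ord hqs hzs
    refine hbad (s * w) ⟨mul_mem hs hw, by rw [← hq, hqz]; exact hu.2⟩ ?_
    rw [show s * w * s' * (s * w)⁻¹ = s * (w * s' * w⁻¹) * s⁻¹ by group, hs'inv, ← conj_inv, hss']

include h2 in
/-- There are special elements. -/
theorem exists_sp : ∃ u, d.Sp u := by
  haveI : Fact (Nat.Prime 2) := ⟨Nat.prime_two⟩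
  have hPS : IsPGroup 2 d.H := d.H_eq_S h2 ▸ d.S.isPGroup'
  -- an element of order four with central square among the powers
  have hpow : ∀ x ∈ d.H, ∀ k, orderOf x = 2 ^ (k + 2) →
      (∀ e ∈ Subgroup.zpowers x, orderOf e = 2 → ∀ h ∈ d.H, h * e = e * h) → ∃ u, d.Sp u := by
    intro x hx k hk hce
    have h4 := exists_power_four hk
    refine ⟨x ^ 2 ^ k, pow_mem hx _, mul_mem (pow_mem hx _) (pow_mem hx _), ?_, ?_⟩
    · rw [← pow_two, orderOf_pow, h4]; rfl
    · exact hce _ (mul_mem (pow_mem (Subgroup.mem_zpowers x) _) (pow_mem (Subgroup.mem_zpowers x) _))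
        (by rw [← pow_two, orderOf_pow, h4]; rfl)
  obtain ⟨x, hx, hxnc, hxc⟩ : ∃ x ∈ d.H, (∃ y ∈ d.H, x * y ≠ y * x) ∧
      (∀ y ∈ d.H, ∀ h ∈ d.H, h * (x * y * x⁻¹ * y⁻¹) = (x * y * x⁻¹ * y⁻¹) * h) ∧
        ∀ h ∈ d.H, h * (x * x) = (x * x) * h := by
    obtain ⟨a, ha, b, hb, hab⟩ := d.hna
    haveI : Nontrivial (d.H ⧸ Subgroup.center d.H) := by
      refine ⟨⟨((⟨a, ha⟩ : d.H) : d.H ⧸ Subgroup.center d.H), 1, fun h => hab ?_⟩⟩
      have h1 := Subgroup.mem_center_iff.1 ((QuotientGroup.eq_one_iff _).1 h) ⟨b, hb⟩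
      exact (congrArg Subtype.val h1).symm
    have hQ := hPS.to_quotient (Subgroup.center d.H)
    haveI := hQ.center_nontrivial
    obtain ⟨q, hq⟩ : ∃ q : Subgroup.center (d.H ⧸ Subgroup.center d.H), orderOf q = 2 := by
      obtain ⟨n, hn⟩ := IsPGroup.iff_card.1
        (hQ.to_subgroup (Subgroup.center (d.H ⧸ Subgroup.center d.H)))
      refine exists_prime_orderOf_dvd_card' 2 ?_
      rcases n with - | n
      · rw [pow_zero] at hn
        exact absurd hn Finite.one_lt_card.ne'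
      · rw [hn]; exact dvd_pow_self 2 n.succ_ne_zero
    obtain ⟨x, hx⟩ := QuotientGroup.mk_surjective (q : d.H ⧸ Subgroup.center d.H)
    refine ⟨x, x.2, ?_, ?_, ?_⟩
    · by_contra hh
      push Not at hh
      have hxZ : x ∈ Subgroup.center d.H :=
        Subgroup.mem_center_iff.2 fun y => Subtype.ext (hh y y.2).symm
      rw [(QuotientGroup.eq_one_iff x).2 hxZ] at hx
      exact involution_ne_one hq (Subtype.ext hx.symm)
    · intro y hy h hh
      have hmem : x * ⟨y, hy⟩ * x⁻¹ * (⟨y, hy⟩ : d.H)⁻¹ ∈ Subgroup.center d.H := by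
        rw [← QuotientGroup.eq_one_iff, QuotientGroup.mk_mul, QuotientGroup.mk_mul,
          QuotientGroup.mk_mul, QuotientGroup.mk_inv, QuotientGroup.mk_inv, hx]
        have hc := Subgroup.mem_center_iff.1 q.2 ((⟨y, hy⟩ : d.H) : d.H ⧸ Subgroup.center d.H)
        rw [← hc, mul_inv_cancel_right, mul_inv_cancel]
      exact congrArg Subtype.val (Subgroup.mem_center_iff.1 hmem ⟨h, hh⟩)
    · intro h hh
      have hmem : x * x ∈ Subgroup.center d.H := by
        rw [← QuotientGroup.eq_one_iff, QuotientGroup.mk_mul, hx, ← Subgroup.coe_mul,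
          involution_sq hq, Subgroup.coe_one]
      exact congrArg Subtype.val (Subgroup.mem_center_iff.1 hmem ⟨h, hh⟩)
  obtain ⟨hxc, hxx⟩ := hxc
  obtain ⟨y, hy, hxy⟩ := hxnc
  by_cases hx2 : x * x = 1
  swap
  · obtain ⟨k, hk⟩ := h2 x hx
    obtain ⟨k, rfl⟩ : ∃ m, k = m + 2 := by
      refine ⟨k - 2, ?_⟩
      by_contra hk1
      apply hx2
      rw [← pow_two, ← orderOf_dvd_iff_pow_eq_one, hk]
      exact pow_dvd_pow 2 (show k ≤ 1 by omega)
    obtain ⟨f, hf, hf2⟩ := d.exists_involution_sq h2 (mul_mem hx hx) hx2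
    refine hpow x hx k hk fun e he he2 h hh => ?_
    have hef : e = f := involution_unique he2 hf2 he
      (Subgroup.zpowers_le.2 (mul_mem (Subgroup.mem_zpowers x) (Subgroup.mem_zpowers x)) hf)
    subst hef
    obtain ⟨i, rfl⟩ := Subgroup.mem_zpowers_iff.1 hf
    exact ((show Commute h (x * x) from hxx h hh).zpow_right i).eq
  set c := x * y * x⁻¹ * y⁻¹ with hc
  have hcH : c ∈ d.H := by rw [hc]; exact mul_mem (mul_mem (mul_mem hx hy) (inv_mem hx)) (inv_mem hy)
  have hc1 : c ≠ 1 := fun h => hxy (mul_inv_eq_iff_eq_mul.1 (mul_inv_eq_one.1 h))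
  have hxyx : x * y * x⁻¹ = c * y := by rw [hc]; group
  have hcc : c * c = 1 := by
    have h1 : x * (c * y) * x⁻¹ = y := by
      rw [← hxyx]
      calc x * (x * y * x⁻¹) * x⁻¹ = (x * x) * y * (x * x)⁻¹ := by group
        _ = y := by rw [hx2]; group
    have h3 : x * (c * y) * x⁻¹ = c * (x * y * x⁻¹) := by
      rw [← mul_assoc x c y, show x * c = c * x from hxc y hy x hx]; simp only [mul_assoc]
    rw [h3, hxyx, ← mul_assoc] at h1
    exact mul_eq_right.1 h1
  have hcord := orderOf_two_of_sq hcc hc1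
  by_cases hy2 : y * y = 1
  · refine ⟨x * y, mul_mem hx hy, ?_⟩
    have e : (x * y) * (x * y) = c := by
      rw [hc, inv_eq_of_mul_eq_one_right hy2, inv_eq_of_mul_eq_one_right hx2, ← mul_assoc]
    rw [e]
    exact ⟨hcH, hcord, fun h hh => hxc y hy h hh⟩
  obtain ⟨k, hk⟩ := h2 y hy
  obtain ⟨k, rfl⟩ : ∃ m, k = m + 2 := by
    refine ⟨k - 2, ?_⟩
    by_contra hk1
    apply hy2
    rw [← pow_two, ← orderOf_dvd_iff_pow_eq_one, hk]
    exact pow_dvd_pow 2 (show k ≤ 1 by omega)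
  obtain ⟨e, he, he2⟩ := d.exists_involution_sq h2 (mul_mem hy hy) hy2
  have hey : e ∈ Subgroup.zpowers y :=
    Subgroup.zpowers_le.2 (mul_mem (Subgroup.mem_zpowers y) (Subgroup.mem_zpowers y)) he
  have hxe : Commute x e := by
    have h1 : Commute x (y * y) := by
      refine mul_inv_eq_iff_eq_mul.1 ?_
      calc x * (y * y) * x⁻¹ = (x * y * x⁻¹) * (x * y * x⁻¹) := by group
        _ = (c * y) * (c * y) := by rw [hxyx]
        _ = y * y := by
          rw [Commute.mul_mul_mul_comm (hxc y hy y hy), hcc, one_mul]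
    obtain ⟨i, rfl⟩ := Subgroup.mem_zpowers_iff.1 he
    exact h1.zpow_right i
  have hcy : c ∈ Subgroup.zpowers y := by
    have h := conj_mem d.hG he2 hey hxe
    rw [hxyx] at h
    exact (Subgroup.mul_mem_cancel_right _ (Subgroup.mem_zpowers y)).1 h
  refine hpow y hy k hk fun f hf hf2 h hh => ?_
  rw [involution_unique hf2 hcord hf hcy]
  exact hxc y hy h hh

include h2 in
/-- A centralizer which is a 2-group is a D-group. -/
theorem exists_dGroup_of_two :
    ∃ A : Subgroup G, A < d.H ∧ ∀ g ∈ d.H, g ∉ A → g ^ 2 = 1 := by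
  obtain ⟨u₀, hu₀⟩ := d.exists_sp h2
  have hout : ∀ s ∈ d.H, s ∉ Subgroup.centralizer {v | d.Sp v} →
      ∀ v, d.Sp v → s * v * s⁻¹ = v⁻¹ := by
    intro s hs hns v hv
    refine (d.sp_conj hv hs).resolve_left fun h => hns ?_
    refine Subgroup.mem_centralizer_iff.2 fun v' hv' => ?_
    rcases d.sp_conj hv' hs with h' | h'
    · exact (mul_inv_eq_iff_eq_mul.1 h').symm
    · exact (d.uniform h2 hv hv' hs h h').elim
  -- involutions commuting with all special elements are central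
  have hcen : ∀ i ∈ d.H, i * i = 1 → i ∈ Subgroup.centralizer {v | d.Sp v} →
      ∀ h ∈ d.H, h * i = i * h := by
    intro i hi hi2 hic h hh
    have hcu : Commute u₀ i := Subgroup.mem_centralizer_iff.1 hic u₀ hu₀
    have hsp := d.sp_mul_involution hu₀ hi hi2 hcu
    refine mul_inv_eq_iff_eq_mul.1 ?_
    by_cases hhA : h ∈ Subgroup.centralizer {v | d.Sp v}
    · have e1 : h * u₀ * h⁻¹ = u₀ :=
        mul_inv_eq_iff_eq_mul.2 (Subgroup.mem_centralizer_iff.1 hhA u₀ hu₀).symm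
      have e2 : h * (u₀ * i) * h⁻¹ = u₀ * i :=
        mul_inv_eq_iff_eq_mul.2 (Subgroup.mem_centralizer_iff.1 hhA _ hsp).symm
      rw [show h * (u₀ * i) * h⁻¹ = (h * u₀ * h⁻¹) * (h * i * h⁻¹) by group, e1] at e2
      exact mul_left_cancel e2
    · have e1 := hout h hh hhA u₀ hu₀
      have e2 := hout h hh hhA _ hsp
      rw [show h * (u₀ * i) * h⁻¹ = (h * u₀ * h⁻¹) * (h * i * h⁻¹) by group, e1, hcu.eq,
        mul_inv_rev, inv_eq_of_mul_eq_one_right hi2] at e2
      exact mul_left_cancel e2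
  refine ⟨d.H ⊓ Subgroup.centralizer {v | d.Sp v},
    lt_of_le_of_ne inf_le_left fun heq => ?_, fun g hg hgA => ?_⟩
  · refine d.false_of_dedekind fun g hg c hc => ?_
    rcases eq_or_ne g 1 with rfl | hg1
    · simp
    obtain ⟨e, he, he2⟩ := d.exists_involution_sq h2 hg hg1
    have heH : e ∈ d.H := Subgroup.zpowers_le.2 hg he
    exact d.special_conj ⟨heH, he2, hcen e heH (involution_sq he2) (heq.ge heH).2⟩ he hc
  have hgn : g ∉ Subgroup.centralizer {v | d.Sp v} := fun h => hgA ⟨hg, h⟩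
  by_contra hne
  rw [pow_two] at hne
  obtain ⟨e, he, he2⟩ := d.exists_involution_sq h2 (mul_mem hg hg) hne
  have heg : e ∈ Subgroup.zpowers g :=
    Subgroup.zpowers_le.2 (mul_mem (Subgroup.mem_zpowers g) (Subgroup.mem_zpowers g)) he
  have heA : e ∈ Subgroup.centralizer {v | d.Sp v} := by
    refine Subgroup.zpowers_le.2 ?_ he
    refine Subgroup.mem_centralizer_iff.2 fun v hv => ?_
    refine (mul_inv_eq_iff_eq_mul.1 ?_).symm
    rw [show g * g * v * (g * g)⁻¹ = g * (g * v * g⁻¹) * g⁻¹ by group, hout g hg hgn v hv,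
      ← conj_inv, hout g hg hgn v hv, inv_inv]
  have hec : d.IsCentral e := ⟨Subgroup.zpowers_le.2 hg heg, he2,
    hcen e (Subgroup.zpowers_le.2 hg heg) (involution_sq he2) heA⟩
  obtain ⟨k, hk⟩ := h2 g hg
  obtain ⟨k, rfl⟩ : ∃ m, k = m + 2 := by
    refine ⟨k - 2, ?_⟩
    by_contra hk1
    apply hne
    rw [← pow_two, ← orderOf_dvd_iff_pow_eq_one, hk]
    exact pow_dvd_pow 2 (show k ≤ 1 by omega)
  have h4 := exists_power_four hk
  set g' := g ^ 2 ^ k with hg'
  have hg'2 : g' * g' = e := involution_unique (by rw [← pow_two, orderOf_pow, h4]; rfl) he2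
    (mul_mem (pow_mem (Subgroup.mem_zpowers g) _) (pow_mem (Subgroup.mem_zpowers g) _)) heg
  have hsp : d.Sp g' := ⟨pow_mem hg _, hg'2.symm ▸ hec⟩
  have h := hout g hg hgn g' hsp
  rw [((Commute.refl g).pow_right _).eq, mul_inv_cancel_right] at h
  exact (d.sp_four hsp).2.2 h.symm

end Setting

end CfsgLib.GWApps.SameNorm
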